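import Cfsg.Agent.Lib.Chev.TwF4P
import Cfsg.Agent.Lib.Th3D4.Base

/-!
# Root elements and Weyl elements of `F₄`, the Levi subgroup and the radicals for `²F₄`
-/

set_option autoImplicit false
set_option linter.unusedSectionVars false
set_option linter.unusedVariables false
set_option linter.unusedSimpArgs false
set_option maxRecDepth 100000

namespace Cfsg.Agent.Lib.ThF4

open Cfsg Cfsg.Lie Cfsg.Agent.Lib.Chev Cfsg.Agent.Lib.Chev.SL2 Matrix
open Cfsg.Agent.Lib.Chev.TwF4 (hF i0 i1 i2 i3 fin_cases' chiT_eq Dat pP)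
open Cfsg.Agent.Lib.Th3D4 (commute_of_gens n0_eq map_x0 map_y0 mapf mapf_x0 mapf_y0 mapf_n0 mapf_D0)

variable {K : Type*} [Field K]

/-- Root elements. -/
noncomputable abbrev xx (r : ℕ) (t : K) : GL chevF4.Idx K := hF.c.xG r t

theorem xx_add (r : ℕ) (s t : K) : xx r s * xx r t = xx r (s + t) := hF.c.xG_add r s t
theorem xx_inv (r : ℕ) (t : K) : (xx r t)⁻¹ = xx r (-t) := hF.c.xG_inv r t
theorem xx_zero (r : ℕ) : xx r (0 : K) = 1 := hF.c.xG_zero r

theorem cN {r s : ℕ} (h : r < chevF4.nroots ∧ s < chevF4.nroots ∧ s ≠ r ∧ s ≠ chevF4.neg r ∧ chevF4.commTerms r s = [])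
    (u t : K) : xx s u * xx r t = xx r t * xx s u := by
  obtain ⟨h1, h2, h3, h4, h5⟩ := h
  rw [hF.xG_comm (F := K) h1 h2 h3 h4 t u]
  simp [ChevalleyDatum.commWord, h5, Checks.wordG]

theorem tC {r s : ℕ} (h : r < chevF4.nroots ∧ s < chevF4.nroots ∧ s ≠ r ∧ s ≠ chevF4.neg r ∧ chevF4.commTerms r s = [])
    (u t : K) : Commute (xx r t) (xx s u) := (cN h u t).symm

/-! ### Words in the Weyl elements -/

/-- Words in the `n_i`. -/
noncomputable abbrev wn (L : List ℕ) : GL chevF4.Idx K := hF.wordN (F := K) L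

/-- The sign of a word on a root. -/
noncomputable def etaW : List ℕ → ℕ → ℤ
  | [], _ => 1
  | i :: L, r => TabF4.X.eta i (wAct TabF4.X L r) * etaW L r

theorem wAct_cons (i : ℕ) (L : List ℕ) (r : ℕ) : wAct TabF4.X (i :: L) r = TabF4.X.wf i (wAct TabF4.X L r) := rfl

theorem wAct_lt (L : List ℕ) (hL : ∀ i ∈ L, i < chevF4.rank) {r : ℕ} (hr : r < chevF4.nroots) :
    wAct TabF4.X L r < chevF4.nroots := by
  induction L with
  | nil => exact hr
  | cons i L ih =>
    rw [wAct_cons]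
    exact hF.wf_lt (hL i (by simp)) (ih (fun j hj => hL j (by simp [hj])))

theorem wn_conj (L : List ℕ) (hL : ∀ i ∈ L, i < chevF4.rank) {r : ℕ} (hr : r < chevF4.nroots) (t : K) :
    wn L * xx r t * (wn L)⁻¹ = xx (wAct TabF4.X L r) (((etaW L r : ℤ) : K) * t) := by
  induction L with
  | nil =>
    have : wn (K := K) [] = 1 := by simp [wn, Full.wordN]
    rw [this]
    simp [etaW, wAct]
  | cons i L ih =>
    have hi := hL i (by simp)
    have ih' := ih (fun j hj => hL j (by simp [hj]))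
    rw [wn, hF.wordN_cons, wAct_cons]
    have e : hF.nS i * hF.wordN L * xx r t * (hF.nS i * hF.wordN L)⁻¹ =
        hF.nS i * (wn L * xx r t * (wn L)⁻¹) * (hF.nS i)⁻¹ := by
      group
    rw [e, ih', hF.nS_conj_xG hi (wAct_lt L (fun j hj => hL j (by simp [hj])) hr)]
    congr 1
    simp only [etaW]
    push_cast
    ring

theorem wn_append (L₁ L₂ : List ℕ) : wn (K := K) (L₁ ++ L₂) = wn L₁ * wn L₂ := by
  simp [wn, Full.wordN]

/-- Conjugation by a word in characteristic two, from the tables. -/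
theorem wc2 (h2 : (2 : K) = 0) {L : List ℕ} {r r' : ℕ} (h : (∀ i ∈ L, i < chevF4.rank) ∧ r < chevF4.nroots ∧
    wAct TabF4.X L r = r' ∧ (etaW L r = 1 ∨ etaW L r = -1)) (t : K) :
    wn L * xx r t * (wn L)⁻¹ = xx r' t := by
  obtain ⟨h1, h3, h4, h5⟩ := h
  rw [wn_conj L h1 h3, h4]
  congr 1
  rcases h5 with e | e <;> rw [e]
  · simp
  · push_cast
    linear_combination (-t) * h2

theorem wi2 (h2 : (2 : K) = 0) {L : List ℕ} {r r' : ℕ} (h : (∀ i ∈ L, i < chevF4.rank) ∧ r < chevF4.nroots ∧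
    wAct TabF4.X L r = r' ∧ (etaW L r = 1 ∨ etaW L r = -1)) (t : K) :
    (wn L)⁻¹ * xx r' t * wn L = xx r t := by
  rw [← wc2 h2 h t]
  group

/-! ### The rank one subgroups -/

theorem r0 : 0 < chevF4.rank := by decide
theorem r1 : 1 < chevF4.rank := by decide
theorem r2 : 2 < chevF4.rank := by decide
theorem r3 : 3 < chevF4.rank := by decide

theorem sim0 : chevF4.simple 0 = 33 := by decide +kernel
theorem sim3 : chevF4.simple 3 = 24 := by decide +kernel
theorem neg33 : chevF4.neg 33 = 14 := by decide +kernel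
theorem neg24 : chevF4.neg 24 = 23 := by decide +kernel

theorem exists_psi {i : ℕ} (hi : i < chevF4.rank) : ∃ ψ : SpecialLinearGroup (Fin 2) K →* GL chevF4.Idx K,
    (∀ t, ψ (x0 t) = xx (chevF4.simple i) t) ∧ (∀ t, ψ (y0 t) = xx (chevF4.neg (chevF4.simple i)) t) :=
  exists_hom (hF.rankOne (F := K) hi)

/-- The homomorphism of a fundamental root. -/
noncomputable def psi {i : ℕ} (hi : i < chevF4.rank) : SpecialLinearGroup (Fin 2) K →* GL chevF4.Idx K :=
  Classical.choose (exists_psi hi)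

theorem psi_x0 {i : ℕ} (hi : i < chevF4.rank) (t : K) : psi hi (x0 t) = xx (chevF4.simple i) t :=
  (Classical.choose_spec (exists_psi (K := K) hi)).1 t
theorem psi_y0 {i : ℕ} (hi : i < chevF4.rank) (t : K) : psi hi (y0 t) = xx (chevF4.neg (chevF4.simple i)) t :=
  (Classical.choose_spec (exists_psi (K := K) hi)).2 t

theorem psi_n0 {i : ℕ} (hi : i < chevF4.rank) : psi hi (n0 : SpecialLinearGroup (Fin 2) K) = hF.nS i := by
  rw [n0_eq, map_mul, map_mul, psi_x0, psi_y0]
  show _ = hF.c.nG (chevF4.simple i) 1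
  rw [Checks.nG, inv_one]

theorem psi_D0 {i : ℕ} (hi : i < chevF4.rank) (c : Kˣ) : psi hi (D0 c) = hF.hS K hi c := by
  have hR := hF.rankOne (F := K) hi
  have h1 := hR.nt c
  have h2 := hR.nt 1
  simp only [Units.val_one, inv_one, map_one, one_mul] at h1 h2
  have e : (D0 c : SpecialLinearGroup (Fin 2) K) =
      x0 (c : K) * y0 (-(c : K)⁻¹) * x0 (c : K) * (x0 1 * y0 (-1) * x0 1)⁻¹ := by
    have hc : (c : K) ≠ 0 := c.ne_zero
    rw [eq_mul_inv_iff_mul_eq]
    apply Subtype.ext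
    show (D0 c).1 * ((x0 1).1 * (y0 (-1)).1 * (x0 1).1) = (x0 (c : K)).1 * (y0 (-(c : K)⁻¹)).1 * (x0 (c : K)).1
    simp only [D0, x0, y0]
    ext i j
    fin_cases i <;> fin_cases j <;> simp [Matrix.mul_apply, Fin.sum_univ_two, hc]
  rw [e, map_mul, map_inv, map_mul, map_mul, map_mul, map_mul, psi_x0, psi_y0, psi_x0, psi_y0, h1, h2]
  group

/-- The two rank one subgroups of the Levi subgroup commute. -/
theorem c03 (A B : SpecialLinearGroup (Fin 2) K) : Commute (psi r0 A) (psi r3 B) := by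
  apply commute_of_gens
  · intro s t
    rw [psi_x0, psi_x0, sim0, sim3]
    exact tC (by decide +kernel) t s
  · intro s t
    rw [psi_x0, psi_y0, sim0, sim3, neg24]
    exact tC (by decide +kernel) t s
  · intro s t
    rw [psi_y0, psi_x0, sim0, sim3, neg33]
    exact tC (by decide +kernel) t s
  · intro s t
    rw [psi_y0, psi_y0, sim0, sim3, neg33, neg24]
    exact tC (by decide +kernel) t s

theorem psi3_x0 (t : K) : psi r3 (x0 t) = xx 24 t := by rw [psi_x0, sim3]
theorem psi3_y0 (t : K) : psi r3 (y0 t) = xx 23 t := by rw [psi_y0, sim3, neg24]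
theorem psi0_x0 (t : K) : psi r0 (x0 t) = xx 33 t := by rw [psi_x0, sim0]
theorem psi0_y0 (t : K) : psi r0 (y0 t) = xx 14 t := by rw [psi_y0, sim0, neg33]

/-- Torus elements trivial on the roots of an `SL₂` commute with it. -/
theorem tor_comm_psi {i : ℕ} (hi : i < chevF4.rank) (z : Fin chevF4.rank → Kˣ)
    (h1 : chiT chevF4 z (chevF4.simple i) = 1) (h2 : chiT chevF4 z (chevF4.neg (chevF4.simple i)) = 1)
    (S : SpecialLinearGroup (Fin 2) K) : Commute (tor RootF4T.R chevF4 z) (psi hi S) := by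
  have h3 : chevF4.simple i < chevF4.nroots := hF.simple_lt hi
  have h4 : chevF4.neg (chevF4.simple i) < chevF4.nroots := hF.neg_lt h3
  have hS := mem_closure_elementary S
  induction hS using Subgroup.closure_induction with
  | mem g hg =>
    rcases hg with ⟨t, rfl⟩ | ⟨t, rfl⟩
    · rw [psi_x0]
      have := hF.tor_mul_xG z h3 t
      rw [h1] at this
      simpa [Commute, SemiconjBy] using this
    · rw [psi_y0]
      have := hF.tor_mul_xG z h4 t
      rw [h2] at this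
      simpa [Commute, SemiconjBy] using this
  | one => simp
  | mul a b _ _ ha hb =>
    rw [map_mul]
    exact ha.mul_right hb
  | inv a _ ha =>
    rw [map_inv]
    exact ha.inv_right

/-! ### The Levi subgroup -/

variable {e : ℕ} (d : Dat K e)

/-- The values of a character on the torus parameters. -/
theorem chi_cOf' (p : Kˣ × Kˣ) (s : ℕ) : chiT chevF4 (d.cOf p) s =
    (Units.map (d.f : K →* K) p.1) ^ chevF4.cartan i0 s * (Units.map (d.f : K →* K) p.2) ^ chevF4.cartan i1 s *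
      p.2 ^ chevF4.cartan i2 s * p.1 ^ chevF4.cartan i3 s :=
  Fin.prod_univ_four (fun i : Fin 4 => (d.cOf p i) ^ chevF4.cartan i s)

/-- The `SL₂` of the Levi subgroup. -/
noncomputable def psiL : SpecialLinearGroup (Fin 2) K →* GL chevF4.Idx K :=
  MonoidHom.mk' (fun A => psi r3 A * psi r0 (mapf d.f A)) (by
    intro A B
    simp only [map_mul]
    have h1 := (c03 (mapf d.f A) B).eq
    calc psi r3 A * psi r3 B * (psi r0 (mapf d.f A) * psi r0 (mapf d.f B))
        = psi r3 A * (psi r3 B * psi r0 (mapf d.f A)) * psi r0 (mapf d.f B) := by group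
      _ = psi r3 A * (psi r0 (mapf d.f A) * psi r3 B) * psi r0 (mapf d.f B) := by rw [h1]
      _ = _ := by group)

theorem psiL_apply (A : SpecialLinearGroup (Fin 2) K) : psiL d A = psi r3 A * psi r0 (mapf d.f A) := rfl

theorem psiL_x0 (t : K) : psiL d (x0 t) = xx 24 t * xx 33 (d.f t) := by
  rw [psiL_apply, mapf_x0, psi3_x0, psi0_x0]

theorem psiL_y0 (t : K) : psiL d (y0 t) = xx 23 t * xx 14 (d.f t) := by
  rw [psiL_apply, mapf_y0, psi3_y0, psi0_y0]

theorem psiL_n0 : psiL d n0 = wn [3, 0] := by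
  rw [psiL_apply, mapf_n0, psi_n0, psi_n0]
  simp [wn, Full.wordN]

theorem unitsF_eq (y : Kˣ) : unitsF d.f y = Units.map (d.f : K →* K) y := rfl

theorem psiL_D0 (y : Kˣ) : psiL d (D0 y) = tor RootF4T.R chevF4 (d.cOf (y, 1)) := by
  rw [psiL_apply, mapf_D0, psi_D0, psi_D0, Full.hS_apply, Full.hS_apply, tor_mul]
  congr 1
  funext j
  have e3 : ∀ j : Fin chevF4.rank, (Pi.mulSingle (⟨3, r3⟩ : Fin chevF4.rank) y : Fin chevF4.rank → Kˣ) j = if (j : ℕ) = 3 then y else 1 := by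
    intro j
    by_cases h : (j : ℕ) = 3
    · have : j = ⟨3, r3⟩ := Fin.ext h
      subst this
      simp
    · rw [if_neg h, Pi.mulSingle_eq_of_ne]
      intro h1
      exact h (by rw [h1])
  have e0 : ∀ (v : Kˣ) (j : Fin chevF4.rank), (Pi.mulSingle (⟨0, r0⟩ : Fin chevF4.rank) v : Fin chevF4.rank → Kˣ) j = if (j : ℕ) = 0 then v else 1 := by
    intro v j
    by_cases h : (j : ℕ) = 0
    · have : j = ⟨0, r0⟩ := Fin.ext h
      subst this
      simp
    · rw [if_neg h, Pi.mulSingle_eq_of_ne]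
      intro h1
      exact h (by rw [h1])
  rw [Pi.mul_apply, e3, e0]
  refine fin_cases' (P := fun j => (if (j : ℕ) = 3 then y else 1) * (if (j : ℕ) = 0 then unitsF d.f y else 1) = d.cOf (y, 1) j) ?_ ?_ ?_ ?_ j
  · show (if (0 : ℕ) = 3 then y else 1) * (if (0 : ℕ) = 0 then unitsF d.f y else 1) = Units.map (d.f : K →* K) y
    simp
    rfl
  · show (if (1 : ℕ) = 3 then y else 1) * (if (1 : ℕ) = 0 then unitsF d.f y else 1) = Units.map (d.f : K →* K) 1
    simp
  · show (if (2 : ℕ) = 3 then y else 1) * (if (2 : ℕ) = 0 then unitsF d.f y else 1) = 1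
    simp
  · show (if (3 : ℕ) = 3 then y else 1) * (if (3 : ℕ) = 0 then unitsF d.f y else 1) = y
    simp

/-- The central part of the Levi subgroup. -/
noncomputable def zt (c : Kˣ) : GL chevF4.Idx K := tor RootF4T.R chevF4 (d.cOf (c, c ^ 2))

theorem cOf_i0 (p : Kˣ × Kˣ) : d.cOf p i0 = Units.map (d.f : K →* K) p.1 := rfl
theorem cOf_i1 (p : Kˣ × Kˣ) : d.cOf p i1 = Units.map (d.f : K →* K) p.2 := rfl
theorem cOf_i2 (p : Kˣ × Kˣ) : d.cOf p i2 = p.2 := rfl
theorem cOf_i3 (p : Kˣ × Kˣ) : d.cOf p i3 = p.1 := rfl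

theorem zt_mul [Fintype K] (c c' : Kˣ) : zt d (c * c') = zt d c * zt d c' := by
  unfold zt
  rw [tor_mul, ← d.cOf_mul]
  congr 2
  apply Prod.ext
  · rfl
  · show (c * c') ^ 2 = c ^ 2 * c' ^ 2
    rw [mul_pow]

theorem zt_one [Fintype K] : zt d (1 : Kˣ) = 1 := by
  have := zt_mul d 1 1
  rw [mul_one] at this
  exact left_eq_mul.1 this

theorem chi_zt (c : Kˣ) : chiT chevF4 (d.cOf (c, c ^ 2)) 24 = 1 ∧ chiT chevF4 (d.cOf (c, c ^ 2)) 23 = 1 ∧
    chiT chevF4 (d.cOf (c, c ^ 2)) 33 = 1 ∧ chiT chevF4 (d.cOf (c, c ^ 2)) 14 = 1 := by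
  have t : (chevF4.cartan i0 24 = 0 ∧ chevF4.cartan i1 24 = 0 ∧ chevF4.cartan i2 24 = -1 ∧ chevF4.cartan i3 24 = 2) ∧
      (chevF4.cartan i0 23 = 0 ∧ chevF4.cartan i1 23 = 0 ∧ chevF4.cartan i2 23 = 1 ∧ chevF4.cartan i3 23 = -2) ∧
      (chevF4.cartan i0 33 = 2 ∧ chevF4.cartan i1 33 = -1 ∧ chevF4.cartan i2 33 = 0 ∧ chevF4.cartan i3 33 = 0) ∧
      (chevF4.cartan i0 14 = -2 ∧ chevF4.cartan i1 14 = 1 ∧ chevF4.cartan i2 14 = 0 ∧ chevF4.cartan i3 14 = 0) := by
    decide +kernel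
  obtain ⟨⟨a1, a2, a3, a4⟩, ⟨b1, b2, b3, b4⟩, ⟨c1, c2, c3, c4⟩, ⟨e1, e2, e3, e4⟩⟩ := t
  refine ⟨?_, ?_, ?_, ?_⟩
  · rw [chi_cOf', a1, a2, a3, a4]
    simp only [zpow_zero, one_mul, _root_.zpow_neg_one]
    show (c ^ 2)⁻¹ * c ^ ((2 : ℕ) : ℤ) = 1
    rw [zpow_natCast, inv_mul_cancel]
  · rw [chi_cOf', b1, b2, b3, b4]
    simp only [zpow_zero, one_mul, zpow_one]
    show c ^ 2 * c ^ (-((2 : ℕ) : ℤ)) = 1
    rw [_root_.zpow_neg, zpow_natCast, mul_inv_cancel]
  · rw [chi_cOf', c1, c2, c3, c4]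
    simp only [zpow_zero, mul_one, _root_.zpow_neg_one, map_pow]
    show (Units.map (d.f : K →* K) c) ^ ((2 : ℕ) : ℤ) * ((Units.map (d.f : K →* K) c) ^ 2)⁻¹ = 1
    rw [zpow_natCast, mul_inv_cancel]
  · rw [chi_cOf', e1, e2, e3, e4]
    simp only [zpow_zero, mul_one, zpow_one, map_pow]
    show (Units.map (d.f : K →* K) c) ^ (-((2 : ℕ) : ℤ)) * ((Units.map (d.f : K →* K) c) ^ 2) = 1
    rw [_root_.zpow_neg, zpow_natCast, inv_mul_cancel]

theorem zt_comm (c : Kˣ) (S : SpecialLinearGroup (Fin 2) K) : Commute (zt d c) (psiL d S) := by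
  obtain ⟨h1, h2, h3, h4⟩ := chi_zt d c
  rw [psiL_apply]
  apply Commute.mul_right
  · exact tor_comm_psi r3 _ (by rw [sim3]; exact h1) (by rw [sim3, neg24]; exact h2) S
  · exact tor_comm_psi r0 _ (by rw [sim0]; exact h3) (by rw [sim0, neg33]; exact h4) _

/-- The Levi subgroup. -/
abbrev LL (K : Type*) [Field K] := SpecialLinearGroup (Fin 2) K × Kˣ

variable [Fintype K]

/-- The homomorphism from the Levi subgroup. -/
noncomputable def phi : LL K →* GL chevF4.Idx K :=
  MonoidHom.mk' (fun p => psiL d p.1 * zt d p.2) (by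
    intro p q
    show psiL d (p.1 * q.1) * zt d (p.2 * q.2) = _
    rw [map_mul, zt_mul]
    have h1 := (zt_comm d p.2 q.1).eq
    calc psiL d p.1 * psiL d q.1 * (zt d p.2 * zt d q.2) = psiL d p.1 * (psiL d q.1 * zt d p.2) * zt d q.2 := by group
      _ = psiL d p.1 * (zt d p.2 * psiL d q.1) * zt d q.2 := by rw [h1]
      _ = _ := by group)

theorem phi_apply (p : LL K) : phi d p = psiL d p.1 * zt d p.2 := rfl

/-- The square root `z` with `z ^ 2 = c`. -/
theorem sq_f_f (z : Kˣ) : (Units.map (d.f : K →* K) (Units.map (d.f : K →* K) z)) ^ 2 = z := d.map_map_sq z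

/-- The torus in terms of the Levi subgroup. -/
theorem tor_eq_phi (A B z : Kˣ) (hz : z ^ 2 = B) :
    tor RootF4T.R chevF4 (d.cOf (A, B)) = phi d (D0 (A * z⁻¹), z) := by
  rw [phi_apply]
  show _ = psiL d (D0 (A * z⁻¹)) * zt d z
  rw [psiL_D0, zt, tor_mul, ← d.cOf_mul]
  congr 2
  apply Prod.ext
  · show A = A * z⁻¹ * z
    group
  · show B = 1 * z ^ 2
    rw [one_mul, hz]

/-! ### The radicals -/

/-- The roots of the unipotent radical. -/
def qpL : List ℕ := [25, 26, 27, 28, 29, 30, 31, 32, 34, 35, 36, 37, 38, 39, 40, 41, 42, 43, 44, 45, 46, 47]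
/-- The roots of the opposite unipotent radical. -/
def qnL : List ℕ := [22, 21, 20, 19, 18, 17, 16, 15, 13, 12, 11, 10, 9, 8, 7, 6, 5, 4, 3, 2, 1, 0]

/-- The predicate of the unipotent radical. -/
def Qp (s : ℕ) : Prop := s ∈ qpL
/-- The predicate of the opposite unipotent radical. -/
def Qn (s : ℕ) : Prop := s ∈ qnL

instance decQp (s : ℕ) : Decidable (Qp s) := inferInstanceAs (Decidable (s ∈ qpL))
instance decQn (s : ℕ) : Decidable (Qn s) := inferInstanceAs (Decidable (s ∈ qnL))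

/-- The full unipotent radical. -/
abbrev QU (K : Type*) [Field K] := Full.rootClosure chevF4 K Qp
/-- The full opposite unipotent radical. -/
abbrev QV (K : Type*) [Field K] := Full.rootClosure chevF4 K Qn

section Gen

omit [Fintype K]

theorem xx_mem_QU {s : ℕ} (hs : Qp s) (t : K) : xx s t ∈ QU K := hF.xG_mem_rootClosure hs t
theorem xx_mem_QV {s : ℕ} (hs : Qn s) (t : K) : xx s t ∈ QV K := hF.xG_mem_rootClosure hs t

theorem Qp_lt : ∀ s, Qp s → s < chevF4.nroots := by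
  intro s hs
  have : ∀ s ∈ qpL, s < chevF4.nroots := by decide +kernel
  exact this s hs
theorem Qn_lt : ∀ s, Qn s → s < chevF4.nroots := by
  intro s hs
  have : ∀ s ∈ qnL, s < chevF4.nroots := by decide +kernel
  exact this s hs

theorem term_p : ∀ r ∈ [24, 33, 23, 14], ∀ s ∈ qpL, s ≠ chevF4.neg r ∧ (s ≠ r → ∀ c ∈ chevF4.commTerms r s, c.1 ∈ qpL) := by
  decide +kernel
theorem term_n : ∀ r ∈ [24, 33, 23, 14], ∀ s ∈ qnL, s ≠ chevF4.neg r ∧ (s ≠ r → ∀ c ∈ chevF4.commTerms r s, c.1 ∈ qnL) := by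
  decide +kernel

theorem x_norm_p {r : ℕ} (hr : r ∈ [24, 33, 23, 14]) (t : K) : xx r t ∈ Subgroup.normalizer (QU K : Set (GL chevF4.Idx K)) :=
  hF.xG_mem_normalizer (by
      have : ∀ r ∈ [24, 33, 23, 14], r < chevF4.nroots := by decide +kernel
      exact this r hr) Qp (fun s hs => ⟨Qp_lt s hs, (term_p r hr s hs).1⟩)
    (fun s hs => (term_p r hr s hs).2) t
theorem x_norm_n {r : ℕ} (hr : r ∈ [24, 33, 23, 14]) (t : K) : xx r t ∈ Subgroup.normalizer (QV K : Set (GL chevF4.Idx K)) :=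
  hF.xG_mem_normalizer (by
      have : ∀ r ∈ [24, 33, 23, 14], r < chevF4.nroots := by decide +kernel
      exact this r hr) Qn (fun s hs => ⟨Qn_lt s hs, (term_n r hr s hs).1⟩)
    (fun s hs => (term_n r hr s hs).2) t

/-- Any subgroup containing the generators contains the image of `psi`. -/
theorem psi3_mem {M : Subgroup (GL chevF4.Idx K)} (h1 : ∀ t : K, xx 24 t ∈ M) (h2 : ∀ t : K, xx 23 t ∈ M)
    (S : SpecialLinearGroup (Fin 2) K) : psi r3 S ∈ M := by
  have hS := mem_closure_elementary S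
  induction hS using Subgroup.closure_induction with
  | mem g hg =>
    rcases hg with ⟨t, rfl⟩ | ⟨t, rfl⟩
    · rw [psi3_x0]; exact h1 t
    · rw [psi3_y0]; exact h2 t
  | one => rw [map_one]; exact M.one_mem
  | mul a b _ _ ha hb => rw [map_mul]; exact M.mul_mem ha hb
  | inv a _ ha => rw [map_inv]; exact M.inv_mem ha

theorem psi0_mem {M : Subgroup (GL chevF4.Idx K)} (h1 : ∀ t : K, xx 33 t ∈ M) (h2 : ∀ t : K, xx 14 t ∈ M)
    (S : SpecialLinearGroup (Fin 2) K) : psi r0 S ∈ M := by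
  have hS := mem_closure_elementary S
  induction hS using Subgroup.closure_induction with
  | mem g hg =>
    rcases hg with ⟨t, rfl⟩ | ⟨t, rfl⟩
    · rw [psi0_x0]; exact h1 t
    · rw [psi0_y0]; exact h2 t
  | one => rw [map_one]; exact M.one_mem
  | mul a b _ _ ha hb => rw [map_mul]; exact M.mul_mem ha hb
  | inv a _ ha => rw [map_inv]; exact M.inv_mem ha

theorem psi3_norm_p (S : SpecialLinearGroup (Fin 2) K) : psi r3 S ∈ Subgroup.normalizer (QU K : Set (GL chevF4.Idx K)) :=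
  psi3_mem (fun t => x_norm_p (by decide) t) (fun t => x_norm_p (by decide) t) S
theorem psi0_norm_p (S : SpecialLinearGroup (Fin 2) K) : psi r0 S ∈ Subgroup.normalizer (QU K : Set (GL chevF4.Idx K)) :=
  psi0_mem (fun t => x_norm_p (by decide) t) (fun t => x_norm_p (by decide) t) S
theorem psi3_norm_n (S : SpecialLinearGroup (Fin 2) K) : psi r3 S ∈ Subgroup.normalizer (QV K : Set (GL chevF4.Idx K)) :=
  psi3_mem (fun t => x_norm_n (by decide) t) (fun t => x_norm_n (by decide) t) S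
theorem psi0_norm_n (S : SpecialLinearGroup (Fin 2) K) : psi r0 S ∈ Subgroup.normalizer (QV K : Set (GL chevF4.Idx K)) :=
  psi0_mem (fun t => x_norm_n (by decide) t) (fun t => x_norm_n (by decide) t) S

theorem tor_norm_p (z : Fin chevF4.rank → Kˣ) : tor RootF4T.R chevF4 z ∈ Subgroup.normalizer (QU K : Set (GL chevF4.Idx K)) :=
  hF.diagonal_le_normalizer_closure Qp Qp_lt (hF.tor_mem_diagonal z)
theorem tor_norm_n (z : Fin chevF4.rank → Kˣ) : tor RootF4T.R chevF4 z ∈ Subgroup.normalizer (QV K : Set (GL chevF4.Idx K)) :=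
  hF.diagonal_le_normalizer_closure Qn Qn_lt (hF.tor_mem_diagonal z)

end Gen

theorem phi_norm_p (p : LL K) : phi d p ∈ Subgroup.normalizer (QU K : Set (GL chevF4.Idx K)) :=
  Subgroup.mul_mem _ (Subgroup.mul_mem _ (psi3_norm_p _) (psi0_norm_p _)) (tor_norm_p _)
theorem phi_norm_n (p : LL K) : phi d p ∈ Subgroup.normalizer (QV K : Set (GL chevF4.Idx K)) :=
  Subgroup.mul_mem _ (Subgroup.mul_mem _ (psi3_norm_n _) (psi0_norm_n _)) (tor_norm_n _)

/-! ### The twisted group -/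

/-- The twisted group. -/
noncomputable abbrev GG (d : Dat K e) : Subgroup (GL chevF4.Idx K) := twistedF4 K e

theorem pM_mem (t : K) : d.pW 14 23 t ∈ GG d := by
  have := hF.wordG_mem_genSubgroup (F := K) (S := f4Words K e) (w := f4PairWord e 14 23 t) (Or.inl ⟨t, Or.inr rfl⟩)
  rwa [d.pW_word] at this

theorem psiL_x0' (t : K) : psiL d (x0 t) = d.pW 33 24 t := by
  rw [psiL_x0, Dat.pW]
  exact (TwF4.cPair _ _).1

theorem psiL_y0' (t : K) : psiL d (y0 t) = d.pW 14 23 t := by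
  rw [psiL_y0, Dat.pW]
  exact (TwF4.cPair _ _).2

theorem psiL_mem (S : SpecialLinearGroup (Fin 2) K) : psiL d S ∈ GG d := by
  have hS := mem_closure_elementary S
  induction hS using Subgroup.closure_induction with
  | mem g hg =>
    rcases hg with ⟨t, rfl⟩ | ⟨t, rfl⟩
    · rw [psiL_x0']; exact d.pP_mem_G1 t
    · rw [psiL_y0']; exact pM_mem d t
  | one => rw [map_one]; exact Subgroup.one_mem _
  | mul a b _ _ ha hb => rw [map_mul]; exact Subgroup.mul_mem _ ha hb
  | inv a _ ha => rw [map_inv]; exact Subgroup.inv_mem _ ha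

theorem phi_mem (p : LL K) : phi d p ∈ GG d :=
  Subgroup.mul_mem _ (psiL_mem d _) (d.tor_mem _)

/-- The unipotent radical in the twisted group. -/
noncomputable def Up : Subgroup (GL chevF4.Idx K) := QU K ⊓ GG d
/-- The opposite unipotent radical in the twisted group. -/
noncomputable def Un : Subgroup (GL chevF4.Idx K) := QV K ⊓ GG d

theorem Up_le_G : Up d ≤ GG d := inf_le_right
theorem Un_le_G : Un d ≤ GG d := inf_le_right
theorem Up_le_QU : Up d ≤ QU K := inf_le_left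
theorem Un_le_QV : Un d ≤ QV K := inf_le_left

theorem phi_norm_Up (p : LL K) : phi d p ∈ Subgroup.normalizer (Up d : Set (GL chevF4.Idx K)) := by
  apply Subgroup.mem_normalizer_iff.2
  intro u
  have h1 := Subgroup.mem_normalizer_iff.1 (phi_norm_p d p) u
  have h2 : u ∈ GG d ↔ phi d p * u * (phi d p)⁻¹ ∈ GG d := by
    constructor
    · intro hu
      exact (GG d).mul_mem ((GG d).mul_mem (phi_mem d p) hu) ((GG d).inv_mem (phi_mem d p))
    · intro hu
      have := (GG d).mul_mem ((GG d).mul_mem ((GG d).inv_mem (phi_mem d p)) hu) (phi_mem d p)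
      simpa [mul_assoc] using this
  exact and_congr h1 h2

theorem phi_norm_Un (p : LL K) : phi d p ∈ Subgroup.normalizer (Un d : Set (GL chevF4.Idx K)) := by
  apply Subgroup.mem_normalizer_iff.2
  intro u
  have h1 := Subgroup.mem_normalizer_iff.1 (phi_norm_n d p) u
  have h2 : u ∈ GG d ↔ phi d p * u * (phi d p)⁻¹ ∈ GG d := by
    constructor
    · intro hu
      exact (GG d).mul_mem ((GG d).mul_mem (phi_mem d p) hu) ((GG d).inv_mem (phi_mem d p))
    · intro hu
      have := (GG d).mul_mem ((GG d).mul_mem ((GG d).inv_mem (phi_mem d p)) hu) (phi_mem d p)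
      simpa [mul_assoc] using this
  exact and_congr h1 h2

theorem conj_mem_p (p : LL K) {u : GL chevF4.Idx K} (hu : u ∈ Up d) : phi d p * u * (phi d p)⁻¹ ∈ Up d :=
  (Subgroup.mem_normalizer_iff.1 (phi_norm_Up d p) u).1 hu

theorem conj_inv_mem_p (p : LL K) {u : GL chevF4.Idx K} (hu : u ∈ Up d) : (phi d p)⁻¹ * u * phi d p ∈ Up d := by
  have := conj_mem_p d p⁻¹ hu
  rwa [map_inv, inv_inv] at this

theorem conj_mem_n (p : LL K) {u : GL chevF4.Idx K} (hu : u ∈ Un d) : phi d p * u * (phi d p)⁻¹ ∈ Un d :=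
  (Subgroup.mem_normalizer_iff.1 (phi_norm_Un d p) u).1 hu

theorem conj_inv_mem_n (p : LL K) {u : GL chevF4.Idx K} (hu : u ∈ Un d) : (phi d p)⁻¹ * u * phi d p ∈ Un d := by
  have := conj_mem_n d p⁻¹ hu
  rwa [map_inv, inv_inv] at this

end Cfsg.Agent.Lib.ThF4
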