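import Cfsg.Agent.Lib.ThF4.Fix

/-!
# Double cosets of the parabolic subgroup of `²F₄` with Levi factor `SL₂`
-/

set_option autoImplicit false
set_option linter.unusedSectionVars false
set_option linter.unusedVariables false
set_option linter.unusedSimpArgs false
set_option maxRecDepth 100000

namespace Cfsg.Agent.Lib.ThF4

open Cfsg Cfsg.Lie Cfsg.Agent.Lib.Chev Cfsg.Agent.Lib.Chev.SL2 Matrix Equiv
open Cfsg.Agent.Lib.Chev.TwF4 (hF i0 i1 i2 i3 fin_cases' Dat pP bP NF NF_inj NF_zero wordN_block bW)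
open Cfsg.Agent.Lib.Th3D4 (map_x0 map_y0 mapf mapf_x0 mapf_y0 mapf_n0 mapf_D0 n0_eq)

variable {K : Type*} [Field K] [Fintype K] {e : ℕ} (d : Dat K e)

/-- The parabolic subgroup of the twisted group. -/
noncomputable def PP : Subgroup (GL chevF4.Idx K) where
  carrier := {g | ∃ p : LL K, ∃ u ∈ Up d, g = phi d p * u}
  mul_mem' := by
    rintro _ _ ⟨A, u, hu, rfl⟩ ⟨B, v, hv, rfl⟩
    refine ⟨A * B, (phi d B)⁻¹ * u * phi d B * v, (Up d).mul_mem (conj_inv_mem_p d B hu) hv, ?_⟩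
    rw [map_mul]
    group
  one_mem' := ⟨1, 1, (Up d).one_mem, by simp⟩
  inv_mem' := by
    rintro _ ⟨A, u, hu, rfl⟩
    refine ⟨A⁻¹, phi d A * u⁻¹ * (phi d A)⁻¹, conj_mem_p d A ((Up d).inv_mem hu), ?_⟩
    rw [map_inv]
    group

theorem mem_PP {g : GL chevF4.Idx K} : g ∈ PP d ↔ ∃ p : LL K, ∃ u ∈ Up d, g = phi d p * u := Iff.rfl

theorem phi_mem_PP (p : LL K) : phi d p ∈ PP d := ⟨p, 1, (Up d).one_mem, by simp⟩

theorem Up_le_PP : Up d ≤ PP d := fun u hu => ⟨1, u, hu, by simp⟩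

theorem PP_le_G : PP d ≤ GG d := by
  rintro _ ⟨A, u, hu, rfl⟩
  exact (GG d).mul_mem (phi_mem d A) (Up_le_G d hu)

theorem PP_conj {g u : GL chevF4.Idx K} (hg : g ∈ PP d) (hu : u ∈ Up d) : g * u * g⁻¹ ∈ Up d := by
  obtain ⟨A, v, hv, rfl⟩ := hg
  have h1 := conj_mem_p d A ((Up d).mul_mem ((Up d).mul_mem hv hu) ((Up d).inv_mem hv))
  have e : phi d A * v * u * (phi d A * v)⁻¹ = phi d A * (v * u * v⁻¹) * (phi d A)⁻¹ := by group
  rw [e]
  exact h1

/-! ### The torus -/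

theorem tor_fixed_eq_phi {z : Fin chevF4.rank → Kˣ} (hz : d.Fc z = z) : ∃ p : LL K, tor RootF4T.R chevF4 z = phi d p := by
  have h1 := d.eq_cOf hz
  refine ⟨(D0 (z i3 * (Units.map (d.f : K →* K) (Units.map (d.f : K →* K) (z i2)))⁻¹), Units.map (d.f : K →* K) (Units.map (d.f : K →* K) (z i2))), ?_⟩
  rw [h1]
  exact tor_eq_phi d _ _ _ (d.map_map_sq _)

/-- The torus of the twisted group lies in the image of the Levi subgroup. -/
theorem diag_eq_phi {h : GL chevF4.Idx K} (h1 : h ∈ chevF4.diagonalSubgroup K) (h2 : h ∈ GG d) : ∃ p : LL K, h = phi d p := by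
  obtain ⟨z, rfl⟩ := (hF.mem_diagonal_iff).1 h1
  have hfix := (d.twG).G1_fix _ h2
  rw [d.Fc_def] at hfix
  exact tor_fixed_eq_phi d (Dat.tor_inj' hfix)

/-! ### The unipotent part -/

theorem pos_cases : ∀ r < chevF4.nroots, chevF4.IsPosRoot r → r = 33 ∨ r = 24 ∨ Qp r := by
  have : ∀ r < chevF4.nroots, chevF4.IsPosRoot r → r = 33 ∨ r = 24 ∨ r ∈ qpL := by decide +kernel
  exact this

theorem Qp_pos : ∀ r, Qp r → chevF4.IsPosRoot r := by
  have : ∀ r ∈ qpL, chevF4.IsPosRoot r := by decide +kernel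
  exact this

omit [Fintype K] in
theorem s_mul2 (a b a' b' : K) : xx 33 a * xx 24 b * (xx 33 a' * xx 24 b') = xx 33 (a + a') * xx 24 (b + b') := by
  have h1 : xx 24 b * xx 33 a' = xx 33 a' * xx 24 b := (TwF4.cPair a' b).1
  calc xx 33 a * xx 24 b * (xx 33 a' * xx 24 b') = xx 33 a * (xx 24 b * xx 33 a') * xx 24 b' := by group
    _ = (xx 33 a * xx 33 a') * (xx 24 b * xx 24 b') := by rw [h1]; group
    _ = _ := by rw [xx_add, xx_add]

omit [Fintype K] in
theorem s_inv2 (a b : K) : (xx 33 a * xx 24 b)⁻¹ = xx 33 (-a) * xx 24 (-b) := by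
  apply inv_eq_of_mul_eq_one_right
  rw [s_mul2, add_neg_cancel, add_neg_cancel, xx_zero, xx_zero, one_mul]

omit [Fintype K] in
theorem s_norm2 (a b : K) : xx 33 a * xx 24 b ∈ Subgroup.normalizer (QU K : Set (GL chevF4.Idx K)) :=
  Subgroup.mul_mem _ (x_norm_p (by decide) _) (x_norm_p (by decide) _)

omit [Fintype K] in
theorem U_decomp {u : GL chevF4.Idx K} (hu : u ∈ chevF4.posUnipotent K) : ∃ a b : K, ∃ q ∈ QU K, u = xx 33 a * xx 24 b * q := by
  rw [ChevalleyDatum.posUnipotent] at hu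
  induction hu using Subgroup.closure_induction with
  | mem g hg =>
    obtain ⟨r, t, hr, hg⟩ := hg
    rw [hF.c.eq_xG hg]
    rcases pos_cases r hr.1 hr with rfl | rfl | h
    · exact ⟨t, 0, 1, Subgroup.one_mem _, by simp [xx_zero]⟩
    · exact ⟨0, t, 1, Subgroup.one_mem _, by simp [xx_zero]⟩
    · exact ⟨0, 0, _, xx_mem_QU h t, by rw [xx_zero, xx_zero, one_mul, one_mul]⟩
  | one => exact ⟨0, 0, 1, Subgroup.one_mem _, by simp [xx_zero]⟩
  | mul a b _ _ h1 h2 =>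
    obtain ⟨v, w, q, hq, rfl⟩ := h1
    obtain ⟨v', w', q', hq', rfl⟩ := h2
    refine ⟨v + v', w + w', (xx 33 v' * xx 24 w')⁻¹ * q * (xx 33 v' * xx 24 w') * q', ?_, ?_⟩
    · refine Subgroup.mul_mem _ ?_ hq'
      have h3 := (Subgroup.mem_normalizer_iff.1 (s_norm2 (K := K) (-v') (-w')) q).1 hq
      rw [← s_inv2] at h3
      simpa using h3
    · rw [← s_mul2]
      group
  | inv a _ h1 =>
    obtain ⟨v, w, q, hq, rfl⟩ := h1
    refine ⟨-v, -w, (xx 33 v * xx 24 w) * q⁻¹ * (xx 33 v * xx 24 w)⁻¹, ?_, ?_⟩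
    · exact (Subgroup.mem_normalizer_iff.1 (s_norm2 (K := K) v w) _).1 (Subgroup.inv_mem _ hq)
    · rw [← s_inv2]
      group

omit [Fintype K] in
theorem QU_le_group : QU K ≤ chevF4.group K := by
  unfold QU Full.rootClosure
  rw [Subgroup.closure_le]
  rintro g ⟨s, t, hs, hg⟩
  rw [SetLike.mem_coe, hF.c.eq_xG hg]
  exact hF.c.xG_mem_group (Qp_lt s hs) t

omit [Fintype K] in
theorem s_QU {q : GL chevF4.Idx K} (hq : q ∈ QU K) : d.τ.s q ∈ QU K := by
  unfold QU Full.rootClosure at hq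
  induction hq using Subgroup.closure_induction_right with
  | one =>
    rw [Tw.s_one]
    exact Subgroup.one_mem _
  | mul_right x hx y hy ih =>
    obtain ⟨r, a, hr, hy⟩ := hy
    rw [hF.c.eq_xG hy, d.τ.s_mul (QU_le_group hx) (QU_le_group (xx_mem_QU hr a)), d.s_x (Qp_lt r hr)]
    have h1 : ∀ s ∈ qpL, TwTabF4.S.r s ∈ qpL := by decide +kernel
    exact Subgroup.mul_mem _ ih (xx_mem_QU (h1 r hr) _)
  | mul_inv_cancel x hx y hy ih =>
    obtain ⟨r, a, hr, hy⟩ := hy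
    rw [hF.c.eq_xG hy, hF.c.xG_inv, d.τ.s_mul (QU_le_group hx) (QU_le_group (xx_mem_QU hr (-a))), d.s_x (Qp_lt r hr)]
    have h1 : ∀ s ∈ qpL, TwTabF4.S.r s ∈ qpL := by decide +kernel
    exact Subgroup.mul_mem _ ih (xx_mem_QU (h1 r hr) _)

omit [Fintype K] in
theorem QU_le_Uk : QU K ≤ Full.Uk chevF4 K 25 := by
  apply Subgroup.closure_mono
  rintro g ⟨s, t, hs, hg⟩
  have h1 : ∀ s ∈ qpL, 25 ≤ s ∧ s < chevF4.nroots := by decide +kernel
  exact ⟨s, t, h1 s hs, hg⟩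

omit [Fintype K] in
theorem x24_not (β : K) (h : xx 24 β ∈ Full.Uk chevF4 K 25) : β = 0 :=
  hF.xG_not_mem (k := 24) (by decide +kernel) (by decide +kernel) h

include d in
omit [Fintype K] in
theorem pair_mem_QU_zero {α β : K} (h : xx 33 α * xx 24 β ∈ QU K) : α = 0 ∧ β = 0 := by
  have h33 : xx 33 α ∈ Full.Uk chevF4 K 25 := hF.xG_mem_rootClosure (by decide +kernel) _
  have hβ : β = 0 := by
    apply x24_not
    have := Subgroup.mul_mem _ (Subgroup.inv_mem _ h33) (QU_le_Uk h)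
    simpa using this
  subst hβ
  rw [xx_zero, mul_one] at h
  refine ⟨?_, rfl⟩
  have h1 := s_QU d h
  rw [(d.sP α).1] at h1
  have h2 : d.g α = 0 := x24_not _ (QU_le_Uk h1)
  have h3 := d.f_g α
  rw [h2, map_zero] at h3
  exact h3.symm

/-- The positive unipotent elements of the twisted group lie in the parabolic subgroup. -/
theorem U_fix_mem_PP {u : GL chevF4.Idx K} (hu : u ∈ chevF4.posUnipotent K) (huG : u ∈ GG d) : u ∈ PP d := by
  obtain ⟨a, b, q, hq, rfl⟩ := U_decomp hu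
  have hfix := (d.twG).G1_fix _ huG
  have hx33 : xx 33 a ∈ chevF4.group K := hF.c.xG_mem_group (by decide +kernel) a
  have hx24 : xx 24 b ∈ chevF4.group K := hF.c.xG_mem_group (by decide +kernel) b
  rw [d.τ.s_mul (Subgroup.mul_mem _ hx33 hx24) (QU_le_group hq), d.τ.s_mul hx33 hx24, (d.sP a).1, (d.sP b).2] at hfix
  have hc : xx 24 (d.g a) * xx 33 (d.f b) = xx 33 (d.f b) * xx 24 (d.g a) := (TwF4.cPair _ _).1
  rw [show hF.c.xG 24 (d.g a) * hF.c.xG 33 (d.f b) = xx 33 (d.f b) * xx 24 (d.g a) from hc] at hfix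
  have h1 : xx 33 (-(d.f b) + a) * xx 24 (-(d.g a) + b) = d.τ.s q * q⁻¹ := by
    rw [← s_mul2, ← s_inv2]
    have e1 : (xx 33 (d.f b) * xx 24 (d.g a))⁻¹ * (xx 33 a * xx 24 b) = (xx 33 (d.f b) * xx 24 (d.g a))⁻¹ * ((xx 33 a * xx 24 b * q) * q⁻¹) := by
      group
    rw [e1, ← hfix]
    group
  obtain ⟨h3, -⟩ := pair_mem_QU_zero d (by
    rw [h1]
    exact Subgroup.mul_mem _ (s_QU d hq) (Subgroup.inv_mem _ hq))
  have h4 : a = d.f b := by linear_combination h3
  subst h4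
  have h5 : xx 33 (d.f b) * xx 24 b = phi d (x0 b, 1) := by
    rw [phi_apply]
    show _ = psiL d (x0 b) * zt d 1
    rw [psiL_x0', zt_one, mul_one]
    rfl
  have hG : phi d (x0 b, 1) ∈ GG d := phi_mem d _
  have hqG : q ∈ GG d := by
    rw [h5] at huG
    have := (GG d).mul_mem ((GG d).inv_mem hG) huG
    simpa using this
  exact ⟨(x0 b, 1), q, ⟨hq, hqG⟩, by rw [h5]⟩

theorem borel_le_PP {b : GL chevF4.Idx K} (hb : b ∈ chevF4.borelSubgroup K) (hG : b ∈ GG d) : b ∈ PP d := by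
  obtain ⟨u, hu, h, hh, rfl⟩ := (d.twG).borel_split hb hG
  obtain ⟨p, hp⟩ := diag_eq_phi d hh.1 hh.2
  rw [hp]
  exact (PP d).mul_mem (U_fix_mem_PP d hu.1 hu.2) (phi_mem_PP d p)

theorem Up_le_borel : Up d ≤ chevF4.borelSubgroup K := by
  refine le_trans (Up_le_QU d) ?_
  unfold QU Full.rootClosure
  rw [Subgroup.closure_le]
  rintro g ⟨s, t, hs, hg⟩
  exact hF.c.posUnipotent_le_borel (Subgroup.subset_closure ⟨s, t, Qp_pos s hs, hg⟩)

theorem bP_mem_Up (t u : K) : bP d t u ∈ Up d := by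
  refine ⟨?_, d.bP_mem_G1 t u⟩
  unfold bP bW
  exact Subgroup.mul_mem _ (xx_mem_QU (by decide) _) (Subgroup.mul_mem _ (xx_mem_QU (by decide) _)
    (Subgroup.mul_mem _ (xx_mem_QU (by decide) _) (xx_mem_QU (by decide) _)))

theorem bP_one_ne : bP d (1 : K) 0 ≠ 1 := by
  intro h1
  rw [bP, d.bP_NF, ← NF_zero] at h1
  exact one_ne_zero (NF_inj h1).1

/-- Every nontrivial element has a conjugate outside the parabolic subgroup. -/
theorem exists_conj_not_mem (hS : IsSimpleGroup ↥(GG d)) {g : GL chevF4.Idx K} (hg : g ∈ GG d)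
    (hg1 : g ≠ 1) : ∃ h ∈ GG d, h * g * h⁻¹ ∉ PP d := by
  by_contra hcon
  push Not at hcon
  let Pg : Subgroup ↥(GG d) := (PP d).subgroupOf (GG d)
  have hcore : (⟨g, hg⟩ : ↥(GG d)) ∈ Pg.normalCore := by
    intro b
    exact Subgroup.mem_subgroupOf.2 (hcon b.1 b.2)
  rcases (Subgroup.normalCore_normal Pg).eq_bot_or_eq_top with h | h
  · rw [h, Subgroup.mem_bot] at hcore
    exact hg1 (congrArg Subtype.val hcore)
  · have hall : ∀ b ∈ GG d, b ∈ PP d := by
      intro b hb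
      have h1 : (⟨b, hb⟩ : ↥(GG d)) ∈ Pg.normalCore := by
        rw [h]
        exact Subgroup.mem_top _
      exact Subgroup.mem_subgroupOf.1 (Subgroup.normalCore_le _ h1)
    have hx : (⟨bP d 1 0, d.bP_mem_G1 1 0⟩ : ↥(GG d)) ∈
        ((chevF4.borelSubgroup K ⊓ GG d).subgroupOf (GG d)).normalCore := by
      intro b
      have h2 := PP_conj d (hall b.1 b.2) (bP_mem_Up d 1 0)
      exact Subgroup.mem_subgroupOf.2 ⟨Up_le_borel d h2, Up_le_G d h2⟩
    have hcoreB : ((chevF4.borelSubgroup K ⊓ GG d).subgroupOf (GG d)).normalCore = ⊥ := (d.twG).normalCore_B1 d.hcent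
    rw [hcoreB, Subgroup.mem_bot] at hx
    exact bP_one_ne d (congrArg Subtype.val hx)

/-! ### The Weyl group -/

/-- The blocks of the double coset representatives. -/
def blocks : Fin 5 → List (List ℕ) := ![[], [[1, 2, 1, 2]], [[1, 2, 1, 2], [0, 3], [1, 2, 1, 2]],
  [[1, 2, 1, 2], [0, 3], [1, 2, 1, 2], [0, 3], [1, 2, 1, 2]],
  [[1, 2, 1, 2], [0, 3], [1, 2, 1, 2], [0, 3], [1, 2, 1, 2], [0, 3], [1, 2, 1, 2]]]

/-- The words of the double coset representatives. -/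
def wordL (k : Fin 5) : List ℕ := (blocks k).flatten

/-- The permutation of a word. -/
noncomputable def wpL (L : List ℕ) : Perm (Fin chevF4.nroots) := (L.map hF.wPt).prod

/-- Permutations of the double coset representatives. -/
noncomputable def kP (k : Fin 5) : Perm (Fin chevF4.nroots) := wpL (wordL k)

/-- Optional reflection. -/
noncomputable def ep (b : Bool) : Perm (Fin chevF4.nroots) := if b then wpL [0, 3] else 1

/-- The reflection of the long block. -/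
noncomputable def wa : Perm (Fin chevF4.nroots) := wpL [1, 2, 1, 2]
/-- The reflection of the short block. -/
noncomputable def wb : Perm (Fin chevF4.nroots) := wpL [0, 3]

set_option maxHeartbeats 8000000 in
theorem W_step : ∀ (e₁ : Bool) (k : Fin 5) (e₂ : Bool) (j : Bool), ∃ (e₁' : Bool) (k' : Fin 5) (e₂' : Bool),
    ep e₁ * kP k * ep e₂ * (if j then wa else wb) = ep e₁' * kP k' * ep e₂' := by
  decide +kernel

/-- A word in the monomial group. -/
noncomputable def wN (L : List ℕ) : ↥(chevF4.monomialSubgroup K) := (L.map (hF.nNt K)).prod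

theorem wN_coe {L : List ℕ} (h : ∀ j ∈ L, j < chevF4.rank) :
    ((wN L : ↥(chevF4.monomialSubgroup K)) : GL chevF4.Idx K) = wn L := hF.coe_prod_nNt h

theorem rhoN_wN (L : List ℕ) : hF.rhoN K (wN L) = wpL L := hF.rhoN_prod_nNt L

/-- The double coset representatives in the monomial group. -/
noncomputable def nuN (k : Fin 5) : ↥(chevF4.monomialSubgroup K) := wN (wordL k)
/-- The double coset representatives. -/
noncomputable def nuK (k : Fin 5) : GL chevF4.Idx K := wn (wordL k)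

theorem wordL_lt : ∀ k, ∀ j ∈ wordL k, j < chevF4.rank := by decide +kernel

theorem nuN_val (k : Fin 5) : ((nuN k : ↥(chevF4.monomialSubgroup K)) : GL chevF4.Idx K) = nuK k := wN_coe (wordL_lt k)

theorem rhoN_nuN (k : Fin 5) : hF.rhoN K (nuN k) = kP k := rhoN_wN _

/-- Optional reflection in the monomial group. -/
noncomputable def epN (b : Bool) : ↥(chevF4.monomialSubgroup K) := if b then wN [0, 3] else 1

theorem rhoN_epN (b : Bool) : hF.rhoN K (epN b) = ep b := by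
  cases b
  · simp [epN, ep]
  · simp [epN, ep, rhoN_wN]

theorem wn03_eq : wn (K := K) [0, 3] = phi d (n0, 1) := by
  rw [phi_apply]
  show _ = psiL d n0 * zt d 1
  rw [zt_one, mul_one, psiL_apply, mapf_n0, psi_n0, psi_n0]
  have h := (c03 (K := K) n0 n0).eq
  rw [psi_n0, psi_n0] at h
  simp only [wn, Full.wordN, List.map_cons, List.map_nil, List.prod_cons, List.prod_nil, mul_one]
  exact h

theorem epN_val (b : Bool) : ∃ A : LL K, ((epN b : ↥(chevF4.monomialSubgroup K)) : GL chevF4.Idx K) = phi d A := by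
  cases b
  · exact ⟨1, by simp [epN]⟩
  · refine ⟨(n0, 1), ?_⟩
    rw [← wn03_eq]
    exact wN_coe (by decide +kernel)

theorem nuK_mem (k : Fin 5) : nuK k ∈ GG d := by
  apply hF.wordN_flatten_mem
  intro b hb
  apply wordN_block (by exact_mod_cast d.h2) d.he
  have : ∀ k, ∀ b ∈ blocks k, b = [0, 3] ∨ b = [1, 2, 1, 2] := by decide +kernel
  exact this k b hb

theorem rho_all (n : ↥(chevF4.monomialSubgroup K)) (hn : n.1 ∈ GG d) :
    ∃ (e₁ : Bool) (k : Fin 5) (e₂ : Bool), hF.rhoN K n = ep e₁ * kP k * ep e₂ := by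
  obtain ⟨L, h, hL, hh, hhG, e⟩ := (d.twG).N1_induction _ n hn rfl
  set A := d.twG with hA
  let m : ↥(chevF4.monomialSubgroup K) := (L.map A.nC).prod
  have hm' : ∀ L' : List ℕ, (((L'.map A.nC).prod : ↥(chevF4.monomialSubgroup K)) : GL chevF4.Idx K) =
      (L'.map fun i => (A.nC i).1).prod := by
    intro L'
    induction L' with
    | nil => simp
    | cons a L' ih => simp only [List.map_cons, List.prod_cons, Subgroup.coe_mul, ih]
  have hm : m.1 = (L.map fun i => (A.nC i).1).prod := hm' L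
  have h1 : (n * m⁻¹).1 = h := by
    show n.1 * m.1⁻¹ = h
    rw [e, hm]
    group
  have h2 : hF.rhoN K (n * m⁻¹) = 1 := hF.rhoN_of_mem_diagonal _ (h1 ▸ hh)
  have h3 : hF.rhoN K n = hF.rhoN K m := by
    rw [map_mul, map_inv] at h2
    exact mul_inv_eq_one.1 h2
  rw [h3]
  have hnC : ∀ i, hF.rhoN K (A.nC i) = wpL (TwWF4.gen i) := fun i => hF.rhoN_prod_nNt (TwWF4.gen i)
  have h4 : ∀ L' : List ℕ, (∀ i ∈ L', i < chevF4.rank) → ∃ (e₁ : Bool) (k : Fin 5) (e₂ : Bool),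
      hF.rhoN K (L'.map A.nC).prod = ep e₁ * kP k * ep e₂ := by
    intro L'
    induction L' using List.reverseRecOn with
    | nil =>
      intro _
      refine ⟨false, 0, false, ?_⟩
      simp [ep, kP, wpL, wordL, blocks]
    | append_singleton L' a ih =>
      intro hL'
      obtain ⟨e₁, k, e₂, he⟩ := ih (fun i hi => hL' i (by simp [hi]))
      have ha : a < 4 := hL' a (by simp)
      rw [List.map_append, List.prod_append, map_mul, he]
      simp only [List.map_cons, List.map_nil, List.prod_cons, List.prod_nil, mul_one]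
      rw [hnC]
      interval_cases a
      · exact W_step e₁ k e₂ false
      · exact W_step e₁ k e₂ true
      · exact W_step e₁ k e₂ true
      · exact W_step e₁ k e₂ false
  exact h4 L hL

/-- Every monomial element lies in a double coset of the Levi subgroup with a representative in our list. -/
theorem mono_decomp {n : GL chevF4.Idx K} (hn : n ∈ chevF4.monomialSubgroup K) (hnG : n ∈ GG d) :
    ∃ (A B : LL K) (k : Fin 5), n = phi d A * nuK k * phi d B := by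
  let n' : ↥(chevF4.monomialSubgroup K) := ⟨n, hn⟩
  obtain ⟨e₁, k, e₂, hσ⟩ := rho_all d n' hnG
  let m : ↥(chevF4.monomialSubgroup K) := epN e₁ * nuN k * epN e₂
  have hm : hF.rhoN K m = hF.rhoN K n' := by
    rw [hσ, map_mul, map_mul, rhoN_epN, rhoN_epN, rhoN_nuN]
  have h1 : hF.rhoN K (m⁻¹ * n') = 1 := by
    rw [map_mul, map_inv, hm, inv_mul_cancel]
  have h2 : (m⁻¹ * n').1 ∈ chevF4.diagonalSubgroup K := hF.mem_diagonal_of_rhoN_eq_one h1
  obtain ⟨A, hA⟩ := epN_val d e₁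
  obtain ⟨B, hB⟩ := epN_val d e₂
  have hmG : m.1 ∈ GG d := by
    show (epN e₁).1 * (nuN k).1 * (epN e₂).1 ∈ GG d
    rw [hA, hB, nuN_val]
    exact (GG d).mul_mem ((GG d).mul_mem (phi_mem d A) (nuK_mem d k)) (phi_mem d B)
  have h4 : (m⁻¹ * n').1 ∈ GG d := (GG d).mul_mem ((GG d).inv_mem hmG) hnG
  obtain ⟨p, hp⟩ := diag_eq_phi d h2 h4
  refine ⟨A, B * p, k, ?_⟩
  have e : n = m.1 * (m⁻¹ * n').1 := by
    have : m * (m⁻¹ * n') = n' := by group
    exact (congrArg Subtype.val this).symm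
  rw [e, hp, map_mul]
  show (epN e₁).1 * (nuN k).1 * (epN e₂).1 * _ = _
  rw [hA, hB, nuN_val]
  group

/-- Every element outside the parabolic is conjugate into a coset of a representative. -/
theorem exists_conj_nu {g : GL chevF4.Idx K} (hg : g ∈ GG d) (hgP : g ∉ PP d) :
    ∃ h ∈ GG d, ∃ k : Fin 5, k ≠ 0 ∧ ∃ A : LL K, ∃ u ∈ Up d, h * g * h⁻¹ = nuK k * phi d A * u := by
  obtain ⟨P, hPB, hPN⟩ := d.exists_bn
  obtain ⟨n, hn, hgn⟩ := Cfsg.Agent.Lib.BNPair.exists_mem_dc (P := P) ⟨g, hg⟩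
  rw [hPN] at hn
  have hn' := Subgroup.mem_subgroupOf.1 hn
  obtain ⟨b₁, hb₁, b₂, hb₂, e⟩ := Cfsg.Agent.Lib.BNPair.mem_dc.1 hgn
  rw [hPB] at hb₁ hb₂
  have hb₁' := Subgroup.mem_subgroupOf.1 hb₁
  have hb₂' := Subgroup.mem_subgroupOf.1 hb₂
  have e1 : g = b₁.1 * n.1 * b₂.1 := congrArg Subtype.val e
  obtain ⟨A, B, k, hk⟩ := mono_decomp d hn'.1 hn'.2
  set p₁ := b₁.1 * phi d A with hp₁
  set p₂ := phi d B * b₂.1 with hp₂
  have hp₁P : p₁ ∈ PP d := (PP d).mul_mem (borel_le_PP d hb₁'.1 hb₁'.2) (phi_mem_PP d A)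
  have hp₂P : p₂ ∈ PP d := (PP d).mul_mem (phi_mem_PP d B) (borel_le_PP d hb₂'.1 hb₂'.2)
  have e2 : g = p₁ * nuK k * p₂ := by
    rw [e1, hk, hp₁, hp₂]
    group
  have hk0 : k ≠ 0 := by
    rintro rfl
    apply hgP
    have : nuK (K := K) (0 : Fin 5) = 1 := by simp [nuK, wordL, blocks, wn, Full.wordN]
    rw [e2, this, mul_one]
    exact (PP d).mul_mem hp₁P hp₂P
  obtain ⟨A', u, hu, e3⟩ := (PP d).mul_mem hp₂P hp₁P
  refine ⟨p₁⁻¹, (GG d).inv_mem (PP_le_G d hp₁P), k, hk0, A', u, hu, ?_⟩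
  have e4 : p₁⁻¹ * g * p₁⁻¹⁻¹ = nuK k * (p₂ * p₁) := by
    rw [e2]
    group
  rw [e4, e3]
  group

end Cfsg.Agent.Lib.ThF4
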