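import Cfsg.Agent.Lib.ThF4.Bruhat

/-!
# Gauss decompositions of the Weyl group representatives of `²F₄`
-/

set_option autoImplicit false
set_option linter.unusedSectionVars false
set_option linter.unusedVariables false
set_option linter.unusedSimpArgs false
set_option maxRecDepth 100000

namespace Cfsg.Agent.Lib.ThF4

open Cfsg Cfsg.Lie Cfsg.Agent.Lib.Chev Cfsg.Agent.Lib.Chev.SL2 Matrix Equiv
open Cfsg.Agent.Lib.Chev.TwF4 (hF i0 i1 i2 i3 fin_cases' Dat pP bP NF NF_inj NF_zero wordN_block bW pairP pairM classU10 classV01 classU11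
  w_pairP w_pairM w_U10 w_V01 w_U11 bl)
open Cfsg.Agent.Lib.Th3D4 (map_x0 map_y0 mapf mapf_x0 mapf_y0 mapf_n0 mapf_D0 n0_eq)

variable {K : Type*} [Field K] [Fintype K] {e : ℕ} (d : Dat K e)

/-- The property of being reachable by left multiplication. -/
def Cov (ν : GL chevF4.Idx K) (C : LL K) : Prop :=
  ∃ y ∈ Up d, ∃ y' ∈ Un d, ∃ w ∈ Up d, y * ν = y' * phi d C * w

/-- The consequence of `Cov` for an element of the coset. -/
theorem cov_conj {ν : GL chevF4.Idx K} {C : LL K} (h : Cov d ν C) (A : LL K) {u : GL chevF4.Idx K}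
    (hu : u ∈ Up d) : ∃ y ∈ Up d, ∃ y' ∈ Un d, ∃ w ∈ Up d,
      y * (ν * phi d A * u) * y⁻¹ = y' * phi d (C * A) * w := by
  obtain ⟨y, hy, y', hy', w, hw, e⟩ := h
  refine ⟨y, hy, y', hy', (phi d A)⁻¹ * w * phi d A * u * y⁻¹,
    (Up d).mul_mem ((Up d).mul_mem (conj_inv_mem_p d A hw) hu) ((Up d).inv_mem hy), ?_⟩
  have e1 : y * (ν * phi d A * u) * y⁻¹ = (y * ν) * phi d A * u * y⁻¹ := by group
  rw [e1, e, map_mul]
  group

/-- From a Gauss decomposition at parameter one to all parameters. -/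
theorem cov_of_gauss {ν Y V Z : GL chevF4.Idx K} (hν : ν = Y * V * Z) (hY : Y ∈ Up d) (hV : V ∈ Un d) (hZ : Z ∈ Up d)
    (p C : LL K) (hC : ν * phi d p * ν⁻¹ = phi d C * phi d p) : Cov d ν C := by
  set h := phi d p with hh
  set c := phi d C with hc
  have e1 : h * ν * h⁻¹ = c⁻¹ * ν := by
    have e2 : ν * h⁻¹ * ν⁻¹ = h⁻¹ * c⁻¹ := by
      have : ν * h⁻¹ * ν⁻¹ = (ν * h * ν⁻¹)⁻¹ := by group
      rw [this, hC]
      group
    calc h * ν * h⁻¹ = h * (ν * h⁻¹ * ν⁻¹) * ν := by group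
      _ = _ := by rw [e2]; group
  have hY' := conj_mem_p d C (conj_mem_p d p hY)
  have hV' := conj_mem_n d C (conj_mem_n d p hV)
  have hZ' := conj_mem_p d p hZ
  rw [← hc, ← hh] at hY' hV'
  rw [← hh] at hZ'
  refine ⟨(c * (h * Y * h⁻¹) * c⁻¹)⁻¹, (Up d).inv_mem hY', c * (h * V * h⁻¹) * c⁻¹, hV', h * Z * h⁻¹, hZ', ?_⟩
  have e3 : ν = c * (h * ν * h⁻¹) := by rw [e1]; group
  have e4 : h * ν * h⁻¹ = (h * Y * h⁻¹) * (h * V * h⁻¹) * (h * Z * h⁻¹) := by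
    rw [hν]
    group
  show _ = (c * (h * V * h⁻¹) * c⁻¹) * c * (h * Z * h⁻¹)
  calc (c * (h * Y * h⁻¹) * c⁻¹)⁻¹ * ν = (c * (h * Y * h⁻¹) * c⁻¹)⁻¹ * (c * ((h * Y * h⁻¹) * (h * V * h⁻¹) * (h * Z * h⁻¹))) := by
        rw [← e4, ← e3]
    _ = _ := by group

/-- Multiplying by an element conjugated into the radical. -/
theorem cov_mul_x {ν : GL chevF4.Idx K} {C : LL K} (h : Cov d ν C) (x : LL K) (hq : ν * phi d x * ν⁻¹ ∈ Up d) : Cov d ν (C * x) := by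
  obtain ⟨y, hy, y', hy', w, hw, e⟩ := h
  refine ⟨y * (ν * phi d x * ν⁻¹), (Up d).mul_mem hy hq, y', hy', (phi d x)⁻¹ * w * phi d x, conj_inv_mem_p d x hw, ?_⟩
  rw [map_mul]
  calc y * (ν * phi d x * ν⁻¹) * ν = (y * ν) * phi d x := by group
    _ = _ := by
      rw [e]
      group

/-! ### Words with integer parameters -/

/-- A word. -/
noncomputable abbrev WW (l : List (ℕ × ℤ)) : GL chevF4.Idx K := hF.c.wordG (castW K l)

omit [Fintype K] in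
theorem castW_mem_QU {l : List (ℕ × ℤ)} (h : ∀ p ∈ l, p.1 ∈ qpL) : WW l ∈ QU K := by
  apply hF.c.wordG_mem
  intro p hp
  simp only [castW, List.mem_map] at hp
  obtain ⟨q, hq, rfl⟩ := hp
  exact xx_mem_QU (h q hq) _

omit [Fintype K] in
theorem castW_mem_QV {l : List (ℕ × ℤ)} (h : ∀ p ∈ l, p.1 ∈ qnL) : WW l ∈ QV K := by
  apply hF.c.wordG_mem
  intro p hp
  simp only [castW, List.mem_map] at hp
  obtain ⟨q, hq, rfl⟩ := hp
  exact xx_mem_QV (h q hq) _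

omit [Fintype K] in
theorem conj_castW (h2 : (2 : K) = 0) {L : List ℕ} (hL : ∀ i ∈ L, i < chevF4.rank) (l : List (ℕ × ℤ))
    (hl : ∀ p ∈ l, p.1 < chevF4.nroots ∧ (etaW L p.1 = 1 ∨ etaW L p.1 = -1)) :
    wn L * WW l * (wn L)⁻¹ = WW (K := K) (l.map fun p => (wAct TabF4.X L p.1, p.2)) := by
  induction l with
  | nil => simp [WW, castW, Checks.wordG_nil]
  | cons p l ih =>
    have h1 := ih (fun q hq => hl q (by simp [hq]))
    have h3 := hl p (by simp)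
    simp only [WW, castW, List.map_cons, Checks.wordG_cons] at h1 ⊢
    have e : wn L * (hF.c.xG p.1 ((p.2 : ℤ) : K) * hF.c.wordG (l.map fun p => (p.1, ((p.2 : ℤ) : K)))) * (wn L)⁻¹ =
        (wn L * xx p.1 ((p.2 : ℤ) : K) * (wn L)⁻¹) * (wn L * hF.c.wordG (l.map fun p => (p.1, ((p.2 : ℤ) : K))) * (wn L)⁻¹) := by
      group
    rw [e, h1, wc2 h2 ⟨hL, h3.1, rfl, h3.2⟩]

theorem wn_blocks_mem (bs : List (List ℕ)) (h : ∀ b ∈ bs, b = [0, 3] ∨ b = [1, 2, 1, 2]) : wn (K := K) bs.flatten ∈ GG d := by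
  apply hF.wordN_flatten_mem
  intro b hb
  exact wordN_block (by exact_mod_cast d.h2) d.he (h b hb)

theorem W_mem_of {l : List (ℕ × ℤ)} (h : castW K l ∈ f4Words K e) : WW l ∈ GG d := hF.wordG_mem_genSubgroup h

include d in
theorem h2' : ((2 : ℕ) : K) = 0 := by exact_mod_cast d.h2

theorem conj_mem_G {L : List ℕ} (hL : wn (K := K) L ∈ GG d) {g : GL chevF4.Idx K} (hg : g ∈ GG d) : wn L * g * (wn L)⁻¹ ∈ GG d :=
  (GG d).mul_mem ((GG d).mul_mem hL hg) ((GG d).inv_mem hL)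

omit [Fintype K] in
theorem W3 (a b c : List (ℕ × ℤ)) : hF.c.wordG (castW K [a, b, c].flatten) = WW a * WW b * WW c := by
  simp only [List.flatten_cons, List.flatten_nil, List.append_nil, castW, List.map_append, hF.c.wordG_append, WW, mul_assoc]

/-! ### The lists -/

/-- Words. -/
def y2 : List (ℕ × ℤ) := [(37, 1), (32, 1)]
/-- Words. -/
def v2 : List (ℕ × ℤ) := [(10, 1), (15, 1)]
/-- Words. -/
def y3 : List (ℕ × ℤ) := [(35, 1), (31, 1), (40, 1), (46, 0)]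
/-- Words. -/
def v3 : List (ℕ × ℤ) := [(12, 0), (16, 0), (7, 1), (1, 1)]
/-- Words. -/
def z3 : List (ℕ × ℤ) := [(35, 1), (31, 1), (40, 0), (46, 1)]
/-- Words. -/
def y4 : List (ℕ × ℤ) := [(39, 1), (45, 1)]
/-- Words. -/
def v4 : List (ℕ × ℤ) := [(8, 1), (2, 1)]
/-- Words. -/
def y6 : List (ℕ × ℤ) := [(38, 1), (43, 1)]
/-- Words. -/
def v6 : List (ℕ × ℤ) := [(9, 1), (4, 1)]

/-- Conjugating words. -/
abbrev u1 : List (List ℕ) := [[1, 2, 1, 2]]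
/-- Conjugating words. -/
abbrev u2 : List (List ℕ) := [[1, 2, 1, 2], [0, 3]]
/-- Conjugating words. -/
abbrev u3 : List (List ℕ) := [[1, 2, 1, 2], [0, 3], [1, 2, 1, 2]]
/-- Conjugating words. -/
abbrev u6 : List (List ℕ) := [[0, 3], [1, 2, 1, 2]]

theorem chk1 : checkEqMod TabF4.T 2 ((wordL 1).map Op.n) (opsOf [classU10, classV01, classU11].flatten) = true := by decide +kernel
theorem chk2 : checkEqMod TabF4.T 2 ((wordL 2).map Op.n) (opsOf [y2, v2, y2].flatten) = true := by decide +kernel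
theorem chk3 : checkEqMod TabF4.T 2 ((wordL 3).map Op.n) (opsOf [y3, v3, z3].flatten) = true := by decide +kernel
theorem chk4 : checkEqMod TabF4.T 2 ((wordL 4).map Op.n) (opsOf [y4, v4, y4].flatten) = true := by decide +kernel
theorem chk6 : checkEqMod TabF4.T 2 (wLong.map Op.n) (opsOf [y2 ++ y6, v2 ++ v6, y2 ++ y6].flatten) = true := by decide +kernel

include d in
/-- The Gauss decompositions. -/
theorem gauss_of {L : List ℕ} (hL : ∀ i ∈ L, i < chevF4.rank) {a b c : List (ℕ × ℤ)} (h : checkEqMod TabF4.T 2 (L.map Op.n) (opsOf [a, b, c].flatten) = true) :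
    wn (K := K) L = WW a * WW b * WW c := by
  rw [wn, hF.wordN_eq_wordG_mod (h2' d) L hL _ h, W3]

/-! ### Membership in the radicals -/

theorem conj_W_mem {u : List (List ℕ)} (hu : ∀ b ∈ u, b = [0, 3] ∨ b = [1, 2, 1, 2]) {l l' : List (ℕ × ℤ)} (hl : castW K l ∈ f4Words K e)
    (ht : (∀ p ∈ l, p.1 < chevF4.nroots ∧ (etaW u.flatten p.1 = 1 ∨ etaW u.flatten p.1 = -1)) ∧
      (∀ i ∈ u.flatten, i < chevF4.rank) ∧ (l.map fun p => (wAct TabF4.X u.flatten p.1, p.2)) = l') : WW (K := K) l' ∈ GG d := by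
  obtain ⟨h1, h3, h4⟩ := ht
  rw [← h4, ← conj_castW d.h2 h3 l h1]
  exact conj_mem_G d (wn_blocks_mem d u hu) (W_mem_of d hl)

theorem m_y2 : WW (K := K) y2 ∈ Up d :=
  ⟨castW_mem_QU (by decide +kernel), conj_W_mem d (u := u1) (by decide) (w_pairP d.he) (by decide +kernel)⟩
theorem m_v2 : WW (K := K) v2 ∈ Un d :=
  ⟨castW_mem_QV (by decide +kernel), conj_W_mem d (u := u1) (by decide) (w_pairM d.he) (by decide +kernel)⟩
theorem m_y3 : WW (K := K) y3 ∈ Up d :=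
  ⟨castW_mem_QU (by decide +kernel), conj_W_mem d (u := u2) (by decide) (w_U10 d.he) (by decide +kernel)⟩
theorem m_v3 : WW (K := K) v3 ∈ Un d :=
  ⟨castW_mem_QV (by decide +kernel), conj_W_mem d (u := u2) (by decide) (w_V01 d.he) (by decide +kernel)⟩
theorem m_z3 : WW (K := K) z3 ∈ Up d :=
  ⟨castW_mem_QU (by decide +kernel), conj_W_mem d (u := u2) (by decide) (w_U11 (h2' d) d.he) (by decide +kernel)⟩
theorem m_y4 : WW (K := K) y4 ∈ Up d :=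
  ⟨castW_mem_QU (by decide +kernel), conj_W_mem d (u := u3) (by decide) (w_pairP d.he) (by decide +kernel)⟩
theorem m_v4 : WW (K := K) v4 ∈ Un d :=
  ⟨castW_mem_QV (by decide +kernel), conj_W_mem d (u := u3) (by decide) (w_pairM d.he) (by decide +kernel)⟩
theorem m_y6 : WW (K := K) y6 ∈ Up d :=
  ⟨castW_mem_QU (by decide +kernel), conj_W_mem d (u := u6) (by decide) (w_pairP d.he) (by decide +kernel)⟩
theorem m_v6 : WW (K := K) v6 ∈ Un d :=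
  ⟨castW_mem_QV (by decide +kernel), conj_W_mem d (u := u6) (by decide) (w_pairM d.he) (by decide +kernel)⟩
theorem m_U10 : WW (K := K) classU10 ∈ Up d :=
  ⟨castW_mem_QU (by decide +kernel), W_mem_of d (w_U10 d.he)⟩
theorem m_V01 : WW (K := K) classV01 ∈ Un d :=
  ⟨castW_mem_QV (by decide +kernel), W_mem_of d (w_V01 d.he)⟩
theorem m_U11 : WW (K := K) classU11 ∈ Up d :=
  ⟨castW_mem_QU (by decide +kernel), W_mem_of d (w_U11 (h2' d) d.he)⟩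

omit [Fintype K] in
theorem W_append (a b : List (ℕ × ℤ)) : WW (K := K) (a ++ b) = WW a * WW b := by
  simp only [WW, castW, List.map_append, hF.c.wordG_append]

/-! ### The action on the torus -/

/-- The linear form of a character. -/
def linF (v : ℤ × ℤ × ℤ × ℤ) (s : ℕ) : ℤ :=
  v.1 * chevF4.cartan i0 s + v.2.1 * chevF4.cartan i1 s + v.2.2.1 * chevF4.cartan i2 s + v.2.2.2 * chevF4.cartan i3 s

omit [Fintype K] in
theorem chi_mono (z : Fin chevF4.rank → Kˣ) (a b : Kˣ) (E G : ℤ × ℤ × ℤ × ℤ)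
    (h0 : z i0 = a ^ E.1 * b ^ G.1) (h1 : z i1 = a ^ E.2.1 * b ^ G.2.1) (h3 : z i2 = a ^ E.2.2.1 * b ^ G.2.2.1)
    (h4 : z i3 = a ^ E.2.2.2 * b ^ G.2.2.2) (s : ℕ) : chiT chevF4 z s = a ^ linF E s * b ^ linF G s := by
  rw [chi_four, h0, h1, h3, h4]
  simp only [linF, mul_zpow, ← _root_.zpow_mul, _root_.zpow_add]
  simp only [mul_comm, mul_left_comm, mul_assoc]

omit [Fintype K] in
theorem nu_tor_gen {L : List ℕ} (hL : ∀ i ∈ L, i < chevF4.rank) (hsurj : ∀ s, s < 48 → ∃ r, r < 48 ∧ wAct TabF4.X L r = s)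
    (hη : ∀ r, r < 48 → etaW L r = 1 ∨ etaW L r = -1) (a b : Kˣ) {z z' : Fin chevF4.rank → Kˣ} {E G E' G' : ℤ × ℤ × ℤ × ℤ}
    (ht : ∀ r, r < 48 → linF E' (wAct TabF4.X L r) = linF E r ∧ linF G' (wAct TabF4.X L r) = linF G r)
    (h0 : z i0 = a ^ E.1 * b ^ G.1) (h1 : z i1 = a ^ E.2.1 * b ^ G.2.1) (h3 : z i2 = a ^ E.2.2.1 * b ^ G.2.2.1)
    (h4 : z i3 = a ^ E.2.2.2 * b ^ G.2.2.2)
    (h0' : z' i0 = a ^ E'.1 * b ^ G'.1) (h1' : z' i1 = a ^ E'.2.1 * b ^ G'.2.1) (h3' : z' i2 = a ^ E'.2.2.1 * b ^ G'.2.2.1)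
    (h4' : z' i3 = a ^ E'.2.2.2 * b ^ G'.2.2.2) : wn L * tt z * (wn L)⁻¹ = tt z' := by
  apply wn_conj_tor hL z z' hsurj hη
  intro r hr
  rw [chi_mono z' a b E' G' h0' h1' h3' h4', chi_mono z a b E G h0 h1 h3 h4, (ht r hr).1, (ht r hr).2]

/-- The Frobenius on units. -/
noncomputable abbrev fU (d : Dat K e) : Kˣ →* Kˣ := Units.map (d.f : K →* K)

theorem fU_sq (x : Kˣ) : (fU d (fU d x)) ^ 2 = x := d.map_map_sq x

/-- From the action on the torus to `Cov`. -/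
theorem cov_tor {ν Y V Z : GL chevF4.Idx K} (hν : ν = Y * V * Z) (hY : Y ∈ Up d) (hV : V ∈ Un d) (hZ : Z ∈ Up d)
    (pz pz' pC : Kˣ × Kˣ) (hp : pz' = pC * pz) (ht : ν * tt (d.cOf pz) * ν⁻¹ = tt (d.cOf pz')) (zC : Kˣ) (hzC : zC ^ 2 = pC.2) :
    Cov d ν (D0 (pC.1 * zC⁻¹), zC) := by
  have e1 : tt (d.cOf pz) = phi d (D0 (pz.1 * (fU d (fU d pz.2))⁻¹), fU d (fU d pz.2)) :=
    tor_eq_phi d _ _ _ (fU_sq d pz.2)
  have e2 : tt (d.cOf pC) = phi d (D0 (pC.1 * zC⁻¹), zC) := tor_eq_phi d _ _ _ hzC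
  refine cov_of_gauss d hν hY hV hZ (D0 (pz.1 * (fU d (fU d pz.2))⁻¹), fU d (fU d pz.2)) _ ?_
  rw [← e1, ← e2, ht, hp, d.cOf_mul]
  exact (tor_mul RootF4T.R chevF4 _ _).symm

theorem nu_x0_mem {L : List ℕ} (hν : wn (K := K) L ∈ GG d) {r r' : ℕ} (ht : ((∀ i ∈ L, i < chevF4.rank) ∧ 24 < chevF4.nroots ∧
    wAct TabF4.X L 24 = r' ∧ (etaW L 24 = 1 ∨ etaW L 24 = -1)) ∧ ((∀ i ∈ L, i < chevF4.rank) ∧ 33 < chevF4.nroots ∧
    wAct TabF4.X L 33 = r ∧ (etaW L 33 = 1 ∨ etaW L 33 = -1)) ∧ r' ∈ qpL ∧ r ∈ qpL) (v : K) :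
    wn L * phi d (x0 v, 1) * (wn L)⁻¹ ∈ Up d := by
  obtain ⟨t1, t2, t3, t4⟩ := ht
  refine ⟨?_, conj_mem_G d hν (phi_mem d _)⟩
  have e : phi d (x0 v, 1) = xx 24 v * xx 33 (d.f v) := by
    rw [phi_apply]
    show psiL d (x0 v) * zt d 1 = _
    rw [zt_one, mul_one, psiL_x0]
  have e2 : wn L * (xx 24 v * xx 33 (d.f v)) * (wn L)⁻¹ = (wn L * xx 24 v * (wn L)⁻¹) * (wn L * xx 33 (d.f v) * (wn L)⁻¹) := by group
  rw [e, e2, wc2 d.h2 t1, wc2 d.h2 t2]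
  exact Subgroup.mul_mem _ (xx_mem_QU t3 _) (xx_mem_QU t4 _)

omit [Fintype K] in
theorem D0_one : D0 (1 : Kˣ) = 1 := by
  apply Subtype.ext
  show (D0 (1 : Kˣ)).1 = 1
  simp only [D0]
  ext i j
  fin_cases i <;> fin_cases j <;> simp

/-! ### The representatives -/

/-- Exponents. -/
def eZ : ℤ × ℤ × ℤ × ℤ := (0, 0, -1, 0)
/-- Exponents. -/
def gZ : ℤ × ℤ × ℤ × ℤ := (0, -1, 0, 0)

theorem tab1 : (∀ i ∈ wordL 1, i < chevF4.rank) ∧ (∀ s, s < 48 → ∃ r, r < 48 ∧ wAct TabF4.X (wordL 1) r = s) ∧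
    (∀ r, r < 48 → etaW (wordL 1) r = 1 ∨ etaW (wordL 1) r = -1) ∧
    ∀ r, r < 48 → linF (0, 0, 1, 0) (wAct TabF4.X (wordL 1) r) = linF eZ r ∧ linF (0, 1, 0, 0) (wAct TabF4.X (wordL 1) r) = linF gZ r := by
  decide +kernel

theorem tab2 : (∀ i ∈ wordL 2, i < chevF4.rank) ∧ (∀ s, s < 48 → ∃ r, r < 48 ∧ wAct TabF4.X (wordL 2) r = s) ∧
    (∀ r, r < 48 → etaW (wordL 2) r = 1 ∨ etaW (wordL 2) r = -1) ∧
    ∀ r, r < 48 → linF (0, 1, 1, 1) (wAct TabF4.X (wordL 2) r) = linF eZ r ∧ linF (1, 1, 2, 0) (wAct TabF4.X (wordL 2) r) = linF gZ r := by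
  decide +kernel

theorem tab3 : (∀ i ∈ wordL 3, i < chevF4.rank) ∧ (∀ s, s < 48 → ∃ r, r < 48 ∧ wAct TabF4.X (wordL 3) r = s) ∧
    (∀ r, r < 48 → etaW (wordL 3) r = 1 ∨ etaW (wordL 3) r = -1) ∧
    ∀ r, r < 48 → linF (1, 1, 1, 0) (wAct TabF4.X (wordL 3) r) = linF eZ r ∧ linF (0, 1, 2, 2) (wAct TabF4.X (wordL 3) r) = linF gZ r := by
  decide +kernel

theorem tab4 : (∀ i ∈ wordL 4, i < chevF4.rank) ∧ (∀ s, s < 48 → ∃ r, r < 48 ∧ wAct TabF4.X (wordL 4) r = s) ∧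
    (∀ r, r < 48 → etaW (wordL 4) r = 1 ∨ etaW (wordL 4) r = -1) ∧
    ∀ r, r < 48 → linF (0, 0, 1, 1) (wAct TabF4.X (wordL 4) r) = linF eZ r ∧ linF (1, 1, 0, 0) (wAct TabF4.X (wordL 4) r) = linF gZ r := by
  decide +kernel

theorem z_coords (β : Kˣ) : d.cOf (1, β⁻¹) i0 = β ^ eZ.1 * (fU d β) ^ gZ.1 ∧ d.cOf (1, β⁻¹) i1 = β ^ eZ.2.1 * (fU d β) ^ gZ.2.1 ∧
    d.cOf (1, β⁻¹) i2 = β ^ eZ.2.2.1 * (fU d β) ^ gZ.2.2.1 ∧ d.cOf (1, β⁻¹) i3 = β ^ eZ.2.2.2 * (fU d β) ^ gZ.2.2.2 := by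
  refine ⟨?_, ?_, ?_, ?_⟩
  · show fU d 1 = _
    simp [eZ, gZ]
  · show fU d β⁻¹ = _
    simp [eZ, gZ]
  · show β⁻¹ = _
    simp [eZ, gZ]
  · show (1 : Kˣ) = _
    simp [eZ, gZ]

theorem fU_sq' (β : Kˣ) : fU d (fU d β ^ 2) = β := by
  rw [map_pow, fU_sq]

/-- The first representative. -/
theorem cov1 (β : Kˣ) (v : K) : Cov d (nuK 1) ((D0 (1 * β⁻¹), β) * (x0 v, 1)) := by
  obtain ⟨a1, a2, a3, a4⟩ := tab1
  obtain ⟨z0, z1, z2, z3⟩ := z_coords d β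
  apply cov_mul_x
  · refine cov_tor d (gauss_of d a1 chk1) (m_U10 d) (m_V01 d) (m_U11 d) (1, β⁻¹) (1, β) (1, β ^ 2) ?_ ?_ β rfl
    · show ((1 : Kˣ), β) = (1 * 1, β ^ 2 * β⁻¹)
      rw [one_mul, sq, mul_inv_cancel_right]
    · refine nu_tor_gen a1 a2 a3 β (fU d β) a4 z0 z1 z2 z3 ?_ ?_ ?_ ?_
      · show fU d 1 = _
        simp
      · show fU d β = _
        simp
      · show β = _
        simp
      · show (1 : Kˣ) = _
        simp
  · exact nu_x0_mem d (nuK_mem d 1) (r := 37) (r' := 32) (by decide +kernel) v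

/-- The second representative. -/
theorem cov2 (β : Kˣ) (v : K) : Cov d (nuK 2) ((D0 (β * (fU d β * β)⁻¹), fU d β * β) * (x0 v, 1)) := by
  obtain ⟨a1, a2, a3, a4⟩ := tab2
  obtain ⟨z0, z1, z2, z3⟩ := z_coords d β
  apply cov_mul_x
  · refine cov_tor d (gauss_of d a1 chk2) (m_y2 d) (m_v2 d) (m_y2 d) (1, β⁻¹) (β, (fU d β) ^ 2 * β) (β, (fU d β * β) ^ 2) ?_ ?_ _ rfl
    · show (β, (fU d β) ^ 2 * β) = (β * 1, (fU d β * β) ^ 2 * β⁻¹)
      rw [mul_one, mul_pow, sq β, ← mul_assoc, mul_inv_cancel_right]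
    · refine nu_tor_gen a1 a2 a3 β (fU d β) a4 z0 z1 z2 z3 ?_ ?_ ?_ ?_
      · show fU d β = _
        simp
      · show fU d ((fU d β) ^ 2 * β) = _
        rw [map_mul, fU_sq']
        simp
      · show (fU d β) ^ 2 * β = _
        simp only [zpow_one, zpow_zero, mul_one, one_mul]
        rw [zpow_two, sq, mul_comm]
      · show β = _
        simp
  · exact nu_x0_mem d (nuK_mem d 2) (r := 39) (r' := 45) (by decide +kernel) v

/-- The third representative. -/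
theorem cov3 (β : Kˣ) (v : K) : Cov d (nuK 3) ((D0 ((fU d β) ^ 2 * (fU d β * β)⁻¹), fU d β * β) * (x0 v, 1)) := by
  obtain ⟨a1, a2, a3, a4⟩ := tab3
  obtain ⟨z0, z1, z2, z3⟩ := z_coords d β
  apply cov_mul_x
  · refine cov_tor d (gauss_of d a1 chk3) (m_y3 d) (m_v3 d) (m_z3 d) (1, β⁻¹) ((fU d β) ^ 2, (fU d β) ^ 2 * β) ((fU d β) ^ 2, (fU d β * β) ^ 2) ?_ ?_ _ rfl
    · show ((fU d β) ^ 2, (fU d β) ^ 2 * β) = ((fU d β) ^ 2 * 1, (fU d β * β) ^ 2 * β⁻¹)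
      rw [mul_one, mul_pow, sq β, ← mul_assoc, mul_inv_cancel_right]
    · refine nu_tor_gen a1 a2 a3 β (fU d β) a4 z0 z1 z2 z3 ?_ ?_ ?_ ?_
      · show fU d ((fU d β) ^ 2) = _
        rw [fU_sq']
        simp
      · show fU d ((fU d β) ^ 2 * β) = _
        rw [map_mul, fU_sq']
        simp
      · show (fU d β) ^ 2 * β = _
        simp only [zpow_one, zpow_zero, mul_one, one_mul]
        rw [zpow_two, sq, mul_comm]
      · show (fU d β) ^ 2 = _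
        simp only [zpow_one, zpow_zero, mul_one, one_mul]
        rw [zpow_two, sq]
  · exact nu_x0_mem d (nuK_mem d 3) (r := 38) (r' := 43) (by decide +kernel) v

/-- The fourth representative. -/
theorem cov4 (β : Kˣ) : Cov d (nuK 4) (1, β) := by
  obtain ⟨a1, a2, a3, a4⟩ := tab4
  obtain ⟨z0, z1, z2, z3⟩ := z_coords d β
  have h := cov_tor d (gauss_of d a1 chk4) (m_y4 d) (m_v4 d) (m_y4 d) (1, β⁻¹) (β, β) (β, β ^ 2) (by
      show (β, β) = (β * 1, β ^ 2 * β⁻¹)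
      rw [mul_one, sq, mul_inv_cancel_right]) (by
      refine nu_tor_gen a1 a2 a3 β (fU d β) a4 z0 z1 z2 z3 ?_ ?_ ?_ ?_
      · show fU d β = _
        simp
      · show fU d β = _
        simp
      · show β = _
        simp
      · show β = _
        simp) β rfl
  have e : ((D0 ((β, β ^ 2).1 * β⁻¹), β) : LL K) = (1, β) := by
    show ((D0 (β * β⁻¹), β) : LL K) = (1, β)
    rw [mul_inv_cancel, D0_one]
  rwa [e] at h

/-- The longest element. -/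
theorem covW (y z : Kˣ) : Cov d (wn wLong) (D0 y, z) := by
  have h1 : wn (K := K) wLong = WW (y2 ++ y6) * WW (v2 ++ v6) * WW (y2 ++ y6) := gauss_of d TwF4.bl_lt chk6
  have hY : WW (K := K) (y2 ++ y6) ∈ Up d := by
    rw [W_append]
    exact (Up d).mul_mem (m_y2 d) (m_y6 d)
  have hV : WW (K := K) (v2 ++ v6) ∈ Un d := by
    rw [W_append]
    exact (Un d).mul_mem (m_v2 d) (m_v6 d)
  set A : Kˣ := fU d (fU d (y * z)⁻¹) with hA
  have hA2 : A ^ 2 = (y * z)⁻¹ := fU_sq d _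
  have h := cov_tor d h1 hY hV hY (A, z⁻¹) (A⁻¹, z) (A⁻¹ ^ 2, z ^ 2) (by
      show (A⁻¹, z) = (A⁻¹ ^ 2 * A, z ^ 2 * z⁻¹)
      rw [sq, sq, mul_inv_cancel_right, inv_mul_cancel_right]) (by
      have e : (A⁻¹, z) = ((A, z⁻¹) : Kˣ × Kˣ)⁻¹ := by
        apply Prod.ext
        · rfl
        · show z = (z⁻¹)⁻¹
          rw [inv_inv]
      have e2 : d.cOf (A⁻¹, z) = (d.cOf (A, z⁻¹))⁻¹ := by
        rw [e, eq_inv_iff_mul_eq_one, ← d.cOf_mul, inv_mul_cancel]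
        funext j
        refine fin_cases' (P := fun j => d.cOf (1 : Kˣ × Kˣ) j = (1 : Fin chevF4.rank → Kˣ) j) ?_ ?_ rfl rfl j
        · show fU d 1 = 1
          rw [map_one]
        · show fU d 1 = 1
          rw [map_one]
      rw [e2]
      exact wLong_tor _) z rfl
  have e : ((D0 ((A⁻¹ ^ 2, z ^ 2).1 * z⁻¹), z) : LL K) = (D0 y, z) := by
    show ((D0 (A⁻¹ ^ 2 * z⁻¹), z) : LL K) = (D0 y, z)
    have e3 : A⁻¹ ^ 2 * z⁻¹ = y := by
      rw [inv_pow, hA2, inv_inv, mul_inv_cancel_right]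
    rw [e3]
  rwa [e] at h

end Cfsg.Agent.Lib.ThF4
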