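import Cfsg.Agent.Lib.ThF4.Base

/-!
# Elements of the nonsplit torus of `²F₄` act without fixed points on the unipotent radicals
-/

set_option autoImplicit false
set_option linter.unusedSectionVars false
set_option linter.unusedVariables false
set_option linter.unusedSimpArgs false
set_option maxRecDepth 100000

namespace Cfsg.Agent.Lib.ThF4

open Cfsg Cfsg.Lie Cfsg.Agent.Lib.Chev Cfsg.Agent.Lib.Chev.SL2 Matrix
open Cfsg.Agent.Lib.Chev.TwF4 (hF i0 i1 i2 i3 fin_cases' Dat pP)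
open Cfsg.Agent.Lib.Th3D4 (map_x0 map_y0 mapf mapf_x0 mapf_y0 mapf_n0 mapf_D0 n0_eq)
open Cfsg.Agent.Lib.ChevFix (glM glM_val glM_injective)

section Gen

variable {K : Type*} [Field K]

/-- The torus. -/
noncomputable abbrev tt (z : Fin chevF4.rank → Kˣ) : GL chevF4.Idx K := tor RootF4T.R chevF4 z

theorem chi_four (z : Fin chevF4.rank → Kˣ) (s : ℕ) : chiT chevF4 z s =
    z i0 ^ chevF4.cartan i0 s * z i1 ^ chevF4.cartan i1 s * z i2 ^ chevF4.cartan i2 s * z i3 ^ chevF4.cartan i3 s :=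
  Fin.prod_univ_four (fun i : Fin 4 => (z i) ^ chevF4.cartan i s)

theorem tt_word (z : Fin chevF4.rank → Kˣ) (L : List ℕ) (hL : ∀ r ∈ L, r < chevF4.nroots) (t : ℕ → K) :
    tt z * hF.c.wordG (L.map fun r => (r, t r)) * (tt z)⁻¹ =
      hF.c.wordG (L.map fun r => (r, ((chiT chevF4 z r : Kˣ) : K) * t r)) := by
  induction L with
  | nil => simp [Checks.wordG_nil]
  | cons a L ih =>
    rw [List.map_cons, List.map_cons, Checks.wordG_cons, Checks.wordG_cons]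
    have e : tt z * (hF.c.xG a (t a) * hF.c.wordG (L.map fun r => (r, t r))) * (tt z)⁻¹ =
        (tt z * hF.c.xG a (t a) * (tt z)⁻¹) * (tt z * hF.c.wordG (L.map fun r => (r, t r)) * (tt z)⁻¹) := by group
    rw [e, ih (fun r hr => hL r (by simp [hr])), hF.tor_conj_xG z (hL a (by simp))]

theorem tt_fix_pos (z : Fin chevF4.rank → Kˣ) (hz : ∀ r, 24 ≤ r → r < 48 → ((chiT chevF4 z r : Kˣ) : K) ≠ 1)
    {u : GL chevF4.Idx K} (hu : u ∈ chevF4.posUnipotent K) (hfix : tt z * u * (tt z)⁻¹ = u) : u = 1 := by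
  rw [hF.U_eq_Uk] at hu
  have hN : RootF4T.R.N = 24 := by decide +kernel
  have hn : chevF4.nroots = 48 := by decide +kernel
  obtain ⟨t, rfl⟩ := hF.exists_ordW 24 RootF4T.R.N (by rw [hN, hn]) le_rfl _ hu
  have e : tt z * hF.ordW RootF4T.R.N t * (tt z)⁻¹ = hF.ordW RootF4T.R.N (fun r => ((chiT chevF4 z r : Kˣ) : K) * t r) := by
    unfold Full.ordW
    apply tt_word
    intro r hr
    simp only [List.mem_range'_1] at hr
    omega
  rw [e] at hfix
  have h1 := hF.ordW_inj 24 RootF4T.R.N (by rw [hN, hn]) le_rfl _ _ hfix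
  have h2 : ∀ r, RootF4T.R.N ≤ r → r < chevF4.nroots → t r = (0 : ℕ → K) r := by
    intro r hr1 hr2
    have h3 := h1 r hr1 hr2
    have h4 : (((chiT chevF4 z r : Kˣ) : K) - 1) * t r = 0 := by linear_combination h3
    exact (mul_eq_zero.1 h4).resolve_left (sub_ne_zero.2 (hz r (by omega) (by omega)))
  rw [hF.ordW_congr h2, hF.ordW_zero]

theorem QU_le_pos : QU K ≤ chevF4.posUnipotent K := by
  unfold QU Full.rootClosure
  rw [Subgroup.closure_le]
  rintro g ⟨s, t, hs, hg⟩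
  rw [SetLike.mem_coe, hF.c.eq_xG hg]
  have h1 : ∀ s ∈ qpL, s < chevF4.nroots ∧ RootF4T.R.N ≤ s := by decide +kernel
  exact hF.xG_mem_U (h1 s hs).1 (h1 s hs).2 t

/-- Conjugation of the torus by a word. -/
theorem wn_conj_tor {L : List ℕ} (hL : ∀ i ∈ L, i < chevF4.rank) (z z' : Fin chevF4.rank → Kˣ)
    (hsurj : ∀ s, s < 48 → ∃ r, r < 48 ∧ wAct TabF4.X L r = s)
    (hη : ∀ r, r < 48 → etaW L r = 1 ∨ etaW L r = -1)
    (h : ∀ r, r < 48 → chiT chevF4 z' (wAct TabF4.X L r) = chiT chevF4 z r) :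
    wn L * tt z * (wn L)⁻¹ = tt z' := by
  have hn : chevF4.nroots = 48 := by decide +kernel
  have hN : wn (K := K) L ∈ chevF4.monomialSubgroup K := hF.wordN_mem_monomial L hL
  have hH : wn L * tt z * (wn L)⁻¹ ∈ chevF4.diagonalSubgroup K := by
    have := hF.diagonal_normal (F := K)
    have hd : tt z ∈ chevF4.diagonalSubgroup K := hF.tor_mem_diagonal _
    have h3 := this.conj_mem ⟨tt z, hF.c.diagonal_le_monomial hd⟩ (Subgroup.mem_subgroupOf.2 hd) ⟨_, hN⟩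
    exact Subgroup.mem_subgroupOf.1 h3
  obtain ⟨c', hc'⟩ := (hF.mem_diagonal_iff).1 hH
  rw [hc']
  show tor RootF4T.R chevF4 c' = tor RootF4T.R chevF4 z'
  rw [hF.tor_eq, hF.tor_eq]
  apply diagG_congr
  intro s hs
  have hs24 : s < 48 := by omega
  obtain ⟨r, hr, rfl⟩ := hsurj s hs24
  have hrl : r < chevF4.nroots := by omega
  have hηη : (((etaW L r : ℤ) : K)) * ((etaW L r : ℤ) : K) = 1 := by
    rcases hη r hr with e | e <;> rw [e] <;> simp
  have h1 := hF.tor_conj_xG c' hs (1 : K)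
  rw [← hc'] at h1
  have e1 : wn L * xx r ((etaW L r : ℤ) : K) * (wn L)⁻¹ = xx (wAct TabF4.X L r) (1 : K) := by
    rw [wn_conj L hL hrl, hηη]
  have h2 : (wn L * tt z * (wn L)⁻¹) * xx (wAct TabF4.X L r) (1 : K) * (wn L * tt z * (wn L)⁻¹)⁻¹ =
      xx (wAct TabF4.X L r) ((chiT chevF4 z r : Kˣ) : K) := by
    rw [← e1]
    have e : (wn L * tt z * (wn L)⁻¹) * (wn L * xx r ((etaW L r : ℤ) : K) * (wn L)⁻¹) * (wn L * tt z * (wn L)⁻¹)⁻¹ =
        wn L * (tt z * xx r ((etaW L r : ℤ) : K) * (tt z)⁻¹) * (wn L)⁻¹ := by group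
    rw [e, hF.tor_conj_xG z hrl, wn_conj L hL hrl]
    congr 1
    linear_combination ((chiT chevF4 z r : Kˣ) : K) * hηη
  have h4 := hF.xG_param_inj hs (h1.symm.trans h2)
  rw [mul_one] at h4
  apply Units.ext
  rw [h4, h r hr]

theorem chi_inv (z : Fin chevF4.rank → Kˣ) (s : ℕ) : chiT chevF4 z⁻¹ s = (chiT chevF4 z s)⁻¹ := by
  rw [chi_four, chi_four]
  simp only [Pi.inv_apply, _root_.inv_zpow, mul_inv]

theorem chi_neg (z : Fin chevF4.rank → Kˣ) {r : ℕ} (hr : r < 48) : chiT chevF4 z (chevF4.neg r) = (chiT chevF4 z r)⁻¹ := by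
  have t : ∀ r, r < 48 → chevF4.cartan i0 (chevF4.neg r) = - chevF4.cartan i0 r ∧ chevF4.cartan i1 (chevF4.neg r) = - chevF4.cartan i1 r ∧
      chevF4.cartan i2 (chevF4.neg r) = - chevF4.cartan i2 r ∧ chevF4.cartan i3 (chevF4.neg r) = - chevF4.cartan i3 r := by
    decide +kernel
  obtain ⟨a, b, c, e⟩ := t r hr
  rw [chi_four, chi_four, a, b, c, e]
  simp only [_root_.zpow_neg, mul_inv]

/-- The word of the longest element. -/
abbrev wLong : List ℕ := TwF4.bl.flatten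

theorem wLong_eta : ∀ r, r < 48 → etaW wLong r = 1 ∨ etaW wLong r = -1 := by decide +kernel
theorem wLong_act {r : ℕ} (hr : r < 48) : wAct TabF4.X wLong r = chevF4.neg r :=
  TwF4.bl_neg r (by
    have hn : chevF4.nroots = 48 := by decide +kernel
    omega)

theorem neg_lt48 : ∀ r, r < 48 → chevF4.neg r < 48 ∧ chevF4.neg (chevF4.neg r) = r := by decide +kernel

theorem wLong_tor (z : Fin chevF4.rank → Kˣ) : wn wLong * tt z * (wn wLong)⁻¹ = tt z⁻¹ := by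
  apply wn_conj_tor TwF4.bl_lt _ _ _ wLong_eta
  · intro r hr
    rw [wLong_act hr, chi_inv, chi_neg _ hr, inv_inv]
  · intro s hs
    exact ⟨chevF4.neg s, (neg_lt48 s hs).1, by rw [wLong_act (neg_lt48 s hs).1, (neg_lt48 s hs).2]⟩

theorem wLong_QV {g : GL chevF4.Idx K} (hg : g ∈ QV K) : wn wLong * g * (wn wLong)⁻¹ ∈ QU K := by
  unfold QV Full.rootClosure at hg
  induction hg using Subgroup.closure_induction with
  | mem x hx =>
    obtain ⟨s, t, hs, hx⟩ := hx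
    rw [hF.c.eq_xG hx, wn_conj wLong TwF4.bl_lt (Qn_lt s hs)]
    have h1 : ∀ s ∈ qnL, s < 48 ∧ chevF4.neg s ∈ qpL := by decide +kernel
    rw [wLong_act (h1 s hs).1]
    exact xx_mem_QU (h1 s hs).2 _
  | one => simp [Subgroup.one_mem]
  | mul a b _ _ ha hb =>
    have e : wn wLong * (a * b) * (wn wLong)⁻¹ = (wn wLong * a * (wn wLong)⁻¹) * (wn wLong * b * (wn wLong)⁻¹) := by group
    rw [e]
    exact Subgroup.mul_mem _ ha hb
  | inv a _ ha =>
    have e : wn wLong * a⁻¹ * (wn wLong)⁻¹ = (wn wLong * a * (wn wLong)⁻¹)⁻¹ := by group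
    rw [e]
    exact Subgroup.inv_mem _ ha

theorem tt_fix_neg (z : Fin chevF4.rank → Kˣ) (hz : ∀ r, 24 ≤ r → r < 48 → ((chiT chevF4 z r : Kˣ) : K) ≠ 1)
    {u : GL chevF4.Idx K} (hu : u ∈ QV K) (hfix : tt z * u * (tt z)⁻¹ = u) : u = 1 := by
  have hz' : ∀ r, 24 ≤ r → r < 48 → ((chiT chevF4 z⁻¹ r : Kˣ) : K) ≠ 1 := by
    intro r h1 h3 h4
    rw [chi_inv, Units.val_inv_eq_inv_val, inv_eq_one] at h4
    exact hz r h1 h3 h4
  have h1 := tt_fix_pos z⁻¹ hz' (QU_le_pos (wLong_QV hu)) (by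
    rw [← wLong_tor z]
    have e : wn wLong * tt z * (wn wLong)⁻¹ * (wn wLong * u * (wn wLong)⁻¹) * (wn wLong * tt z * (wn wLong)⁻¹)⁻¹ =
        wn wLong * (tt z * u * (tt z)⁻¹) * (wn wLong)⁻¹ := by group
    rw [e, hfix])
  have h2 : u = (wn wLong)⁻¹ * (wn wLong * u * (wn wLong)⁻¹) * wn wLong := by group
  rw [h2, h1]
  group

/-! ### The algebra of characters -/

variable {K' : Type*} [Field K']

theorem inv_not_mem (E : Subfield K') (x : K'ˣ) (hx : (x : K') ∉ E) : ((x⁻¹ : K'ˣ) : K') ∉ E := by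
  intro h
  apply hx
  have := E.inv_mem h
  rwa [Units.val_inv_eq_inv_val, inv_inv] at this

theorem L1 (E : Subfield K') (κ x : K'ˣ) (hκ : (κ : K') ∈ E) (hx : (x : K') ∉ E) : ((κ * x : K'ˣ) : K') ≠ 1 := by
  intro h
  apply hx
  have h1 : (x : K') = (κ : K')⁻¹ := by
    rw [Units.val_mul] at h
    exact eq_inv_of_mul_eq_one_right h
  rw [h1]
  exact E.inv_mem hκ

theorem L2 (E : Subfield K') (h2 : (2 : K') = 0) (κ x y : K'ˣ) (hκ : (κ : K') ∈ E) (hκ2 : ((κ : K')) ^ 2 ≠ 1)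
    (hxs : (x : K') + ((x⁻¹ : K'ˣ) : K') ∈ E) (hys : (y : K') + ((y⁻¹ : K'ˣ) : K') ∈ E) (hy : (y : K') ∉ E) :
    ((κ * (x * y) : K'ˣ) : K') ≠ 1 := by
  intro h
  apply hy
  rw [Units.val_mul, Units.val_mul] at h
  have hκ0 : (κ : K') ≠ 0 := κ.ne_zero
  have hx0 : (x : K') ≠ 0 := x.ne_zero
  have hy0 : (y : K') ≠ 0 := y.ne_zero
  set a := (x : K') + ((x⁻¹ : K'ˣ) : K') with ha
  set b := (y : K') + ((y⁻¹ : K'ˣ) : K') with hb
  have hxi : ((x⁻¹ : K'ˣ) : K') = (κ : K') * y := by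
    rw [Units.val_inv_eq_inv_val]
    field_simp
    linear_combination -h
  have hxe : (x : K') = (κ : K')⁻¹ * ((y⁻¹ : K'ˣ) : K') := by
    rw [Units.val_inv_eq_inv_val]
    field_simp
    linear_combination h
  have hyi : ((y⁻¹ : K'ˣ) : K') = b - y := by rw [hb]; ring
  have hk : (κ : K') - (κ : K')⁻¹ ≠ 0 := by
    intro h3
    apply hκ2
    field_simp at h3
    linear_combination h3
  have e : (y : K') = (a - (κ : K')⁻¹ * b) * ((κ : K') - (κ : K')⁻¹)⁻¹ := by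
    have e1 : a = (κ : K')⁻¹ * b + ((κ : K') - (κ : K')⁻¹) * y := by
      rw [ha, hxi, hxe, hyi]
      ring
    rw [e1]
    field_simp
    ring
  rw [e]
  exact E.mul_mem (E.sub_mem hxs (E.mul_mem (E.inv_mem hκ) hys)) (E.inv_mem (E.sub_mem hκ (E.inv_mem hκ)))

theorem mem_zpow (E : Subfield K') (x : K'ˣ) (hx : (x : K') ∈ E) (n : ℤ) : ((x ^ n : K'ˣ) : K') ∈ E := by
  rw [Units.val_zpow_eq_zpow_val]
  exact E.zpow_mem hx n

theorem chi_expand (F C L M : K'ˣ) (a0 a1 a2 a3 : ℤ) :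
    (M * F) ^ a0 * (F ^ 2) ^ a1 * (C ^ 2) ^ a2 * (L * C) ^ a3 = F ^ (a0 + 2 * a1) * C ^ (2 * a2 + a3) * (M ^ a0 * L ^ a3) := by
  have e1 : (F ^ 2) ^ a1 = F ^ (2 * a1) := by
    rw [← zpow_natCast, ← _root_.zpow_mul]
    norm_cast
  have e2 : (C ^ 2) ^ a2 = C ^ (2 * a2) := by
    rw [← zpow_natCast, ← _root_.zpow_mul]
    norm_cast
  rw [mul_zpow, mul_zpow, e1, e2, _root_.zpow_add, _root_.zpow_add]
  simp only [mul_comm, mul_left_comm, mul_assoc]

/-- The shape of the exponents of a character. -/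
def ShapeF4 (a0 a1 a2 a3 : ℤ) : Prop :=
  (a0 = 0 ∧ (a3 = 1 ∨ a3 = -1)) ∨ ((a0 = 1 ∨ a0 = -1) ∧ a3 = 0) ∨ (a0 = 0 ∧ a3 = 2) ∨ ((a0 = 2 ∨ a0 = -2) ∧ a3 = 0) ∨
  (a0 = 0 ∧ a3 = 0 ∧ ((a0 + 2 * a1 = -2 ∧ 2 * a2 + a3 = 2) ∨ (a0 + 2 * a1 = 4 ∧ 2 * a2 + a3 = -2))) ∨
  ((a0 = 1 ∨ a0 = -1) ∧ (a3 = 1 ∨ a3 = -1) ∧ a0 + 2 * a1 = -1 ∧ 2 * a2 + a3 = 1) ∨
  ((a0 = 2 ∨ a0 = -2) ∧ (a3 = 1 ∨ a3 = -1) ∧ a0 + 2 * a1 = 2 ∧ 2 * a2 + a3 = -1)

theorem shape_all : ∀ r, 24 ≤ r → r < 48 → ((chevF4.cartan i0 r = 0 ∧ (chevF4.cartan i3 r = 1 ∨ chevF4.cartan i3 r = -1)) ∨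
    ((chevF4.cartan i0 r = 1 ∨ chevF4.cartan i0 r = -1) ∧ chevF4.cartan i3 r = 0) ∨ (chevF4.cartan i0 r = 0 ∧ chevF4.cartan i3 r = 2) ∨
    ((chevF4.cartan i0 r = 2 ∨ chevF4.cartan i0 r = -2) ∧ chevF4.cartan i3 r = 0) ∨
    (chevF4.cartan i0 r = 0 ∧ chevF4.cartan i3 r = 0 ∧ ((chevF4.cartan i0 r + 2 * chevF4.cartan i1 r = -2 ∧ 2 * chevF4.cartan i2 r + chevF4.cartan i3 r = 2) ∨
      (chevF4.cartan i0 r + 2 * chevF4.cartan i1 r = 4 ∧ 2 * chevF4.cartan i2 r + chevF4.cartan i3 r = -2))) ∨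
    ((chevF4.cartan i0 r = 1 ∨ chevF4.cartan i0 r = -1) ∧ (chevF4.cartan i3 r = 1 ∨ chevF4.cartan i3 r = -1) ∧
      chevF4.cartan i0 r + 2 * chevF4.cartan i1 r = -1 ∧ 2 * chevF4.cartan i2 r + chevF4.cartan i3 r = 1) ∨
    ((chevF4.cartan i0 r = 2 ∨ chevF4.cartan i0 r = -2) ∧ (chevF4.cartan i3 r = 1 ∨ chevF4.cartan i3 r = -1) ∧
      chevF4.cartan i0 r + 2 * chevF4.cartan i1 r = 2 ∧ 2 * chevF4.cartan i2 r + chevF4.cartan i3 r = -1)) := by
  decide +kernel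

theorem chi_alg (E : Subfield K') (h2 : (2 : K') = 0) (F C L M : K'ˣ) (hF : (F : K') ∈ E) (hC : (C : K') ∈ E)
    (hL : (L : K') ∉ E) (hM : (M : K') ∉ E) (hL2 : ((L ^ 2 : K'ˣ) : K') ∉ E) (hM2 : ((M ^ 2 : K'ˣ) : K') ∉ E)
    (hLs : (L : K') + ((L⁻¹ : K'ˣ) : K') ∈ E) (hMs : (M : K') + ((M⁻¹ : K'ˣ) : K') ∈ E)
    (hk1 : (((C * F⁻¹ : K'ˣ) : K')) ^ 2 ≠ 1) (hk2 : (((F ^ 2 * C⁻¹ : K'ˣ) : K')) ^ 2 ≠ 1)
    {a0 a1 a2 a3 : ℤ} (ha : ShapeF4 a0 a1 a2 a3) :
    (((M * F) ^ a0 * (F ^ 2) ^ a1 * (C ^ 2) ^ a2 * (L * C) ^ a3 : K'ˣ) : K') ≠ 1 := by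
  have hκ : ∀ p n : ℤ, ((F ^ p * C ^ n : K'ˣ) : K') ∈ E := by
    intro p n
    rw [Units.val_mul]
    exact E.mul_mem (mem_zpow E F hF p) (mem_zpow E C hC n)
  have hk1m : ((C * F⁻¹ : K'ˣ) : K') ∈ E := by
    rw [Units.val_mul, Units.val_inv_eq_inv_val]
    exact E.mul_mem hC (E.inv_mem hF)
  have hk2m : ((F ^ 2 * C⁻¹ : K'ˣ) : K') ∈ E := by
    rw [Units.val_mul, Units.val_inv_eq_inv_val, Units.val_pow_eq_pow_val]
    exact E.mul_mem (E.pow_mem hF 2) (E.inv_mem hC)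
  have e1 : F ^ (-1 : ℤ) * C ^ (1 : ℤ) = C * F⁻¹ := by
    rw [_root_.zpow_neg_one, zpow_one, mul_comm]
  have e2 : F ^ (2 : ℤ) * C ^ (-1 : ℤ) = F ^ 2 * C⁻¹ := by
    rw [_root_.zpow_neg_one, zpow_two, sq]
  have hMs2 : ((M ^ 2 : K'ˣ) : K') + (((M ^ 2)⁻¹ : K'ˣ) : K') ∈ E := by
    have e : ((M ^ 2 : K'ˣ) : K') + (((M ^ 2)⁻¹ : K'ˣ) : K') = ((M : K') + ((M⁻¹ : K'ˣ) : K')) ^ 2 := by
      have hm : (M : K') * ((M⁻¹ : K'ˣ) : K') = 1 := by rw [← Units.val_mul, mul_inv_cancel, Units.val_one]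
      rw [Units.val_pow_eq_pow_val, ← inv_pow, Units.val_pow_eq_pow_val]
      linear_combination (-(M : K') * ((M⁻¹ : K'ˣ) : K')) * h2
    rw [e]
    exact E.pow_mem hMs 2
  have hMsI : ((M⁻¹ : K'ˣ) : K') + ((M⁻¹⁻¹ : K'ˣ) : K') ∈ E := by
    rw [inv_inv, add_comm]
    exact hMs
  have hLsI : ((L⁻¹ : K'ˣ) : K') + ((L⁻¹⁻¹ : K'ˣ) : K') ∈ E := by
    rw [inv_inv, add_comm]
    exact hLs
  have hMsI2 : (((M ^ 2)⁻¹ : K'ˣ) : K') + (((M ^ 2)⁻¹⁻¹ : K'ˣ) : K') ∈ E := by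
    rw [inv_inv, add_comm]
    exact hMs2
  rw [chi_expand]
  rcases ha with ⟨h0, h3 | h3⟩ | ⟨h0 | h0, h3⟩ | ⟨h0, h3⟩ | ⟨h0 | h0, h3⟩ | ⟨h0, h3, ⟨h4, h5⟩ | ⟨h4, h5⟩⟩ | ⟨h0 | h0, h3 | h3, h4, h5⟩ | ⟨h0 | h0, h3 | h3, h4, h5⟩
  · rw [h0, h3, zpow_zero, zpow_one, one_mul]
    exact L1 E _ _ (hκ _ _) hL
  · rw [h0, h3, zpow_zero, _root_.zpow_neg_one, one_mul]
    exact L1 E _ _ (hκ _ _) (inv_not_mem E L hL)
  · rw [h0, h3, zpow_zero, zpow_one, mul_one]
    exact L1 E _ _ (hκ _ _) hM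
  · rw [h0, h3, zpow_zero, _root_.zpow_neg_one, mul_one]
    exact L1 E _ _ (hκ _ _) (inv_not_mem E M hM)
  · rw [h0, h3, zpow_zero, one_mul, zpow_two, ← sq]
    exact L1 E _ _ (hκ _ _) hL2
  · rw [h0, h3, zpow_zero, mul_one, zpow_two, ← sq]
    exact L1 E _ _ (hκ _ _) hM2
  · rw [h0, h3, zpow_zero, mul_one, show (-2 : ℤ) = -(2 : ℕ) from rfl, _root_.zpow_neg, zpow_natCast]
    exact L1 E _ _ (hκ _ _) (inv_not_mem E _ hM2)
  · rw [h4, h5, h0, h3, zpow_zero, zpow_zero, mul_one, mul_one]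
    intro h
    apply hk1
    rw [← Units.val_pow_eq_pow_val, ← h]
    congr 1
    rw [mul_pow, inv_pow, show (-2 : ℤ) = -(2 : ℕ) from rfl, _root_.zpow_neg, zpow_natCast, show (2 : ℤ) = ((2 : ℕ) : ℤ) from rfl, zpow_natCast, mul_comm]
  · rw [h4, h5, h0, h3, zpow_zero, zpow_zero, mul_one, mul_one]
    intro h
    apply hk2
    rw [← Units.val_pow_eq_pow_val, ← h]
    congr 1
    rw [mul_pow, inv_pow, show (-2 : ℤ) = -(2 : ℕ) from rfl, _root_.zpow_neg, zpow_natCast, show (4 : ℤ) = ((4 : ℕ) : ℤ) from rfl, zpow_natCast, ← pow_mul]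
  · rw [h4, h5, e1, h0, h3, zpow_one, zpow_one]
    exact L2 E h2 _ _ _ hk1m hk1 hMs hLs hL
  · rw [h4, h5, e1, h0, h3, zpow_one, _root_.zpow_neg_one]
    exact L2 E h2 _ _ _ hk1m hk1 hMs hLsI (inv_not_mem E L hL)
  · rw [h4, h5, e1, h0, h3, zpow_one, _root_.zpow_neg_one]
    exact L2 E h2 _ _ _ hk1m hk1 hMsI hLs hL
  · rw [h4, h5, e1, h0, h3, _root_.zpow_neg_one, _root_.zpow_neg_one]
    exact L2 E h2 _ _ _ hk1m hk1 hMsI hLsI (inv_not_mem E L hL)
  · rw [h4, h5, e2, h0, h3, zpow_one, zpow_two, ← sq]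
    exact L2 E h2 _ _ _ hk2m hk2 hMs2 hLs hL
  · rw [h4, h5, e2, h0, h3, _root_.zpow_neg_one, zpow_two, ← sq]
    exact L2 E h2 _ _ _ hk2m hk2 hMs2 hLsI (inv_not_mem E L hL)
  · rw [h4, h5, e2, h0, h3, zpow_one, show (-2 : ℤ) = -(2 : ℕ) from rfl, _root_.zpow_neg, zpow_natCast]
    exact L2 E h2 _ _ _ hk2m hk2 hMsI2 hLs hL
  · rw [h4, h5, e2, h0, h3, _root_.zpow_neg_one, show (-2 : ℤ) = -(2 : ℕ) from rfl, _root_.zpow_neg, zpow_natCast]
    exact L2 E h2 _ _ _ hk2m hk2 hMsI2 hLsI (inv_not_mem E L hL)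

/-! ### Diagonalising in `SL₂` -/

theorem diag_sl2 (h2 : (2 : K') = 0) {t' : K'} (L : K'ˣ) (b : K') (ht : t' * b = 1) (hq : (L : K') ^ 2 + t' * L + 1 = 0) :
    ∃ A : SpecialLinearGroup (Fin 2) K', A * (n0 * x0 t') * A⁻¹ = D0 L := by
  set l := (L : K') with hl
  set a := ((L⁻¹ : K'ˣ) : K') with ha
  have hla : l * a = 1 := by rw [hl, ha, ← Units.val_mul, mul_inv_cancel, Units.val_one]
  have hdet : a * b * 1 - b * l = 1 := by
    linear_combination (a * b) * hq - (b * l + 1) * hla - (a * l) * ht - (b * l + 1) * h2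
  let A : SpecialLinearGroup (Fin 2) K' := ⟨!![a * b, b; l, 1], by
    rw [Matrix.det_fin_two_of]
    linear_combination hdet⟩
  refine ⟨A, ?_⟩
  rw [mul_inv_eq_iff_eq_mul]
  apply Subtype.ext
  show A.1 * (n0.1 * (x0 t').1) = (D0 L).1 * A.1
  simp only [A, n0, x0, D0]
  rw [← ha, ← hl]
  ext i j
  fin_cases i <;> fin_cases j <;> simp [Matrix.mul_apply, Fin.sum_univ_two, ← ha, ← hl]
  · linear_combination (-b) * hla - b * h2
  · linear_combination hdet - ht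
  · linear_combination -hla - h2
  · linear_combination a * hq - (l + t') * hla - (t' + a) * h2

/-- Conjugating the semisimple element into the torus. -/
theorem conj_to_tor (S₃ S₀ A₃ A₀ : SpecialLinearGroup (Fin 2) K') (l m : K'ˣ) (e₃ : A₃ * S₃ * A₃⁻¹ = D0 l) (e₀ : A₀ * S₀ * A₀⁻¹ = D0 m)
    (z : Fin chevF4.rank → K'ˣ)
    (h3 : ∀ S : SpecialLinearGroup (Fin 2) K', Commute (tt z) (psi r3 S)) (h0 : ∀ S : SpecialLinearGroup (Fin 2) K', Commute (tt z) (psi r0 S)) :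
    (psi r3 A₃ * psi r0 A₀) * (psi r3 S₃ * psi r0 S₀ * tt z) * (psi r3 A₃ * psi r0 A₀)⁻¹ =
      tt (Pi.mulSingle (⟨3, r3⟩ : Fin chevF4.rank) l * (Pi.mulSingle (⟨0, r0⟩ : Fin chevF4.rank) m * z)) := by
  have c1 : ∀ A B : SpecialLinearGroup (Fin 2) K', psi r0 A * psi r3 B = psi r3 B * psi r0 A := fun A B => (c03 A B).eq
  have e : (psi r3 A₃ * psi r0 A₀) * (psi r3 S₃ * psi r0 S₀ * tt z) * (psi r3 A₃ * psi r0 A₀)⁻¹ =
      psi r3 (A₃ * S₃ * A₃⁻¹) * psi r0 (A₀ * S₀ * A₀⁻¹) * tt z := by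
    have e1 : tt z * (psi r3 A₃ * psi r0 A₀)⁻¹ = (psi r3 A₃ * psi r0 A₀)⁻¹ * tt z := by
      have := ((h3 A₃).mul_right (h0 A₀)).inv_right.eq
      exact this
    calc (psi r3 A₃ * psi r0 A₀) * (psi r3 S₃ * psi r0 S₀ * tt z) * (psi r3 A₃ * psi r0 A₀)⁻¹
        = (psi r3 A₃ * psi r0 A₀) * (psi r3 S₃ * psi r0 S₀) * (tt z * (psi r3 A₃ * psi r0 A₀)⁻¹) := by group
      _ = (psi r3 A₃ * (psi r0 A₀ * psi r3 S₃) * psi r0 S₀) * (psi r0 A₀⁻¹ * psi r3 A₃⁻¹) * tt z := by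
          rw [e1, map_inv, map_inv]
          group
      _ = psi r3 A₃ * psi r3 S₃ * (psi r0 A₀ * psi r0 S₀ * psi r0 A₀⁻¹) * psi r3 A₃⁻¹ * tt z := by
          rw [c1]
          group
      _ = psi r3 A₃ * psi r3 S₃ * psi r3 A₃⁻¹ * (psi r0 A₀ * psi r0 S₀ * psi r0 A₀⁻¹) * tt z := by
          have c2 := c1 (A₀ * S₀ * A₀⁻¹) A₃⁻¹
          simp only [map_mul] at c2
          rw [mul_assoc (psi r3 A₃ * psi r3 S₃), c2]
          group
      _ = _ := by simp only [map_mul]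
  rw [e, e₃, e₀, psi_D0, psi_D0, Full.hS_apply, Full.hS_apply, tor_mul, tor_mul]
  rw [mul_assoc]

/-! ### The embedding into a larger field -/

variable (ι : K →+* K')

/-- The embedding. -/
noncomputable abbrev MM : GL chevF4.Idx K →* GL chevF4.Idx K' := glM chevF4 ι

theorem MM_xx (r : ℕ) (t : K) : MM ι (xx r t) = xx r (ι t) := ChevFix.Fix.glM_xG hF ι r t

theorem MM_QU : QU K ≤ (QU K').comap (MM ι) := by
  unfold QU Full.rootClosure
  rw [Subgroup.closure_le]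
  rintro g ⟨s, t, hs, hg⟩
  show MM ι g ∈ Full.rootClosure chevF4 K' Qp
  rw [hF.c.eq_xG hg, MM_xx]
  exact xx_mem_QU hs _

theorem MM_QV : QV K ≤ (QV K').comap (MM ι) := by
  unfold QV Full.rootClosure
  rw [Subgroup.closure_le]
  rintro g ⟨s, t, hs, hg⟩
  show MM ι g ∈ Full.rootClosure chevF4 K' Qn
  rw [hF.c.eq_xG hg, MM_xx]
  exact xx_mem_QV hs _

theorem MM_psi3 (S : SpecialLinearGroup (Fin 2) K) : MM ι (psi r3 S) = psi r3 (SpecialLinearGroup.map ι S) := by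
  have hS := mem_closure_elementary S
  induction hS using Subgroup.closure_induction with
  | mem g hg =>
    rcases hg with ⟨t, rfl⟩ | ⟨t, rfl⟩
    · rw [psi3_x0, MM_xx, map_x0, psi3_x0]
    · rw [psi3_y0, MM_xx, map_y0, psi3_y0]
  | one => simp
  | mul a b _ _ ha hb => simp only [map_mul, ha, hb]
  | inv a _ ha => simp only [map_inv, ha]

theorem MM_psi0 (S : SpecialLinearGroup (Fin 2) K) : MM ι (psi r0 S) = psi r0 (SpecialLinearGroup.map ι S) := by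
  have hS := mem_closure_elementary S
  induction hS using Subgroup.closure_induction with
  | mem g hg =>
    rcases hg with ⟨t, rfl⟩ | ⟨t, rfl⟩
    · rw [psi0_x0, MM_xx, map_x0, psi0_x0]
    · rw [psi0_y0, MM_xx, map_y0, psi0_y0]
  | one => simp
  | mul a b _ _ ha hb => simp only [map_mul, ha, hb]
  | inv a _ ha => simp only [map_inv, ha]

/-- Units under the embedding. -/
noncomputable abbrev ιU : Kˣ →* K'ˣ := Units.map (ι : K →* K')

theorem chi_map (z : Fin chevF4.rank → Kˣ) (s : ℕ) : chiT chevF4 (fun j => ιU ι (z j)) s = ιU ι (chiT chevF4 z s) := by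
  rw [chi_four, chi_four]
  simp only [map_mul, map_zpow]

theorem MM_tt (z : Fin chevF4.rank → Kˣ) : MM ι (tt z) = tt (fun j => ιU ι (z j)) := by
  rw [tt, tt, hF.tor_eq, hF.tor_eq]
  apply Units.ext
  rw [glM_val, coe_diagG, coe_diagG]
  ext i j
  by_cases h : i = j
  · subst h
    cases i with
    | inl a => simp
    | inr a =>
      simp only [Matrix.map_apply, Matrix.diagonal_apply_eq]
      show ι ((chiT chevF4 z a : Kˣ) : K) = ((chiT chevF4 (fun j => ιU ι (z j)) a : K'ˣ) : K')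
      rw [chi_map]
      rfl
  · simp [Matrix.diagonal_apply_ne _ h, Matrix.map_apply]

end Gen

/-! ### The semisimple element -/

section Main

variable {K : Type*} [Field K] [Fintype K] {e : ℕ} (d : Dat K e)

include d in
theorem char2K : (2 : K) = 0 := d.h2

theorem f_ne {c : Kˣ} (hc : c ≠ 1) : d.f (c : K) ≠ c := by
  intro h
  apply hc
  apply Units.ext
  have h1 := d.hθ (c : K)
  rw [h, h] at h1
  have h3 : (c : K) * ((c : K) - 1) = 0 := by linear_combination h1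
  have h4 := (mul_eq_zero.1 h3).resolve_left c.ne_zero
  rw [Units.val_one]
  linear_combination h4

theorem sq_ne_one' (h2 : (2 : K) = 0) {a : K} (ha : a ≠ 1) : a ^ 2 ≠ 1 := by
  intro h
  apply ha
  have h3 : (a - 1) ^ 2 = 0 := by linear_combination h + (1 - a) * h2
  have h4 := pow_eq_zero_iff (two_ne_zero) |>.1 h3
  linear_combination h4

variable {K' : Type*} [Field K'] (ι : K →+* K')

include d ι in
theorem char2K' : (2 : K') = 0 := by
  have h := congrArg ι d.h2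
  rw [map_ofNat, map_zero] at h
  exact h

include d in
theorem sq_not_mem {x : K'} (hx : x ∉ ι.fieldRange) : x ^ 2 ∉ ι.fieldRange := by
  rintro ⟨y, hy⟩
  apply hx
  refine ⟨d.f (d.f y), ?_⟩
  have h1 : (ι (d.f (d.f y)) - x) ^ 2 = 0 := by
    have h3 : ι (d.f (d.f y)) ^ 2 = ι y := by
      rw [← map_pow, d.hθ]
    linear_combination h3 + hy + (x ^ 2 - x * ι (d.f (d.f y))) * char2K' d ι
  have h4 := pow_eq_zero_iff (two_ne_zero) |>.1 h1
  linear_combination h4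

/-- The data of the semisimple element in the larger field. -/
theorem exists_diag [IsAlgClosed K'] {t : K} (ht : t ≠ 0) (hP : ∀ y : K, y ^ 2 + t * y + 1 ≠ 0) {c : Kˣ} (hc : c ≠ 1) :
    ∃ (w : GL chevF4.Idx K') (z : Fin chevF4.rank → K'ˣ),
      w * MM ι (phi d (n0 * x0 t, c)) * w⁻¹ = tt z ∧ (∀ r, 24 ≤ r → r < 48 → ((chiT chevF4 z r : K'ˣ) : K') ≠ 1) ∧
      w ∈ Subgroup.normalizer (QU K' : Set (GL chevF4.Idx K')) ∧ w ∈ Subgroup.normalizer (QV K' : Set (GL chevF4.Idx K')) := by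
  have h2 : (2 : K') = 0 := char2K' d ι
  have hroot : ∀ a : K', ∃ y : K', y ^ 2 + a * y + 1 = 0 := by
    intro a
    have hdeg : (Polynomial.C (1 : K') * Polynomial.X ^ 2 + Polynomial.C a * Polynomial.X + Polynomial.C 1).degree = 2 :=
      Polynomial.degree_quadratic one_ne_zero
    obtain ⟨y, hy⟩ := IsAlgClosed.exists_root (Polynomial.C (1 : K') * Polynomial.X ^ 2 + Polynomial.C a * Polynomial.X + Polynomial.C 1)
      (by rw [hdeg]; decide)
    refine ⟨y, ?_⟩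
    simpa using hy
  have hunit : ∀ {a y : K'}, y ^ 2 + a * y + 1 = 0 → y ≠ 0 := by
    rintro a y hy rfl
    simp at hy
  obtain ⟨l, hl⟩ := hroot (ι t)
  obtain ⟨m, hm⟩ := hroot (ι (d.f t))
  set L : K'ˣ := Units.mk0 l (hunit hl) with hLd
  set M : K'ˣ := Units.mk0 m (hunit hm) with hMd
  have hLv : (L : K') = l := rfl
  have hMv : (M : K') = m := rfl
  have hft : d.f t ≠ 0 := (map_ne_zero d.f).2 ht
  obtain ⟨A₃, hA₃⟩ := diag_sl2 h2 L (ι t)⁻¹ (mul_inv_cancel₀ ((map_ne_zero ι).2 ht)) hl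
  obtain ⟨A₀, hA₀⟩ := diag_sl2 h2 M (ι (d.f t))⁻¹ (mul_inv_cancel₀ ((map_ne_zero ι).2 hft)) hm
  set zc : Fin chevF4.rank → K'ˣ := fun j => ιU ι (d.cOf (c, c ^ 2) j) with hzc
  obtain ⟨c1, c2, c3, c4⟩ := chi_zt d c
  have hc3 : ∀ S : SpecialLinearGroup (Fin 2) K', Commute (tt zc) (psi r3 S) := by
    intro S
    apply tor_comm_psi
    · rw [sim3, hzc, chi_map, c1, map_one]
    · rw [sim3, neg24, hzc, chi_map, c2, map_one]
  have hc0 : ∀ S : SpecialLinearGroup (Fin 2) K', Commute (tt zc) (psi r0 S) := by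
    intro S
    apply tor_comm_psi
    · rw [sim0, hzc, chi_map, c3, map_one]
    · rw [sim0, neg33, hzc, chi_map, c4, map_one]
  refine ⟨psi r3 A₃ * psi r0 A₀, Pi.mulSingle (⟨3, r3⟩ : Fin chevF4.rank) L * (Pi.mulSingle (⟨0, r0⟩ : Fin chevF4.rank) M * zc), ?_, ?_, ?_, ?_⟩
  · have e1 : MM ι (phi d (n0 * x0 t, c)) = psi r3 (n0 * x0 (ι t)) * psi r0 (n0 * x0 (ι (d.f t))) * tt zc := by
      rw [phi_apply, psiL_apply, zt, map_mul, map_mul, MM_psi3, MM_psi0, MM_tt]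
      show psi r3 (SpecialLinearGroup.map ι (n0 * x0 t)) * psi r0 (SpecialLinearGroup.map ι (mapf d.f (n0 * x0 t))) * _ = _
      have e2 : SpecialLinearGroup.map ι (n0 * x0 t) = n0 * x0 (ι t) := by
        rw [map_mul, map_x0]
        congr 1
        apply Subtype.ext
        show ι.mapMatrix (n0 : SpecialLinearGroup (Fin 2) K).1 = (n0 : SpecialLinearGroup (Fin 2) K').1
        simp only [n0]
        ext i j
        fin_cases i <;> fin_cases j <;> simp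
      have e3 : SpecialLinearGroup.map ι (mapf d.f (n0 * x0 t)) = n0 * x0 (ι (d.f t)) := by
        rw [map_mul (mapf d.f), mapf_n0, mapf_x0, map_mul, map_x0]
        congr 1
        apply Subtype.ext
        show ι.mapMatrix (n0 : SpecialLinearGroup (Fin 2) K).1 = (n0 : SpecialLinearGroup (Fin 2) K').1
        simp only [n0]
        ext i j
        fin_cases i <;> fin_cases j <;> simp
      rw [e2, e3]
    rw [e1]
    exact conj_to_tor _ _ _ _ L M hA₃ hA₀ zc hc3 hc0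
  · intro r hr1 hr2
    set F : K'ˣ := ιU ι (Units.map (d.f : K →* K) c) with hF'
    set C : K'ˣ := ιU ι c with hC'
    set zh : Fin chevF4.rank → K'ˣ := Pi.mulSingle (⟨3, r3⟩ : Fin chevF4.rank) L * (Pi.mulSingle (⟨0, r0⟩ : Fin chevF4.rank) M * zc) with hzh
    have z0 : zh i0 = M * F := by
      show (Pi.mulSingle (⟨3, r3⟩ : Fin chevF4.rank) L : Fin chevF4.rank → K'ˣ) i0 * ((Pi.mulSingle (⟨0, r0⟩ : Fin chevF4.rank) M : Fin chevF4.rank → K'ˣ) i0 * zc i0) = _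
      rw [Pi.mulSingle_eq_of_ne (by decide), one_mul, show i0 = (⟨0, r0⟩ : Fin chevF4.rank) from rfl, Pi.mulSingle_eq_same]
      rfl
    have z1 : zh i1 = F ^ 2 := by
      show (Pi.mulSingle (⟨3, r3⟩ : Fin chevF4.rank) L : Fin chevF4.rank → K'ˣ) i1 * ((Pi.mulSingle (⟨0, r0⟩ : Fin chevF4.rank) M : Fin chevF4.rank → K'ˣ) i1 * zc i1) = _
      rw [Pi.mulSingle_eq_of_ne (by decide), Pi.mulSingle_eq_of_ne (by decide), one_mul, one_mul]
      show ιU ι (Units.map (d.f : K →* K) (c ^ 2)) = _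
      rw [map_pow, map_pow]
    have z2 : zh i2 = C ^ 2 := by
      show (Pi.mulSingle (⟨3, r3⟩ : Fin chevF4.rank) L : Fin chevF4.rank → K'ˣ) i2 * ((Pi.mulSingle (⟨0, r0⟩ : Fin chevF4.rank) M : Fin chevF4.rank → K'ˣ) i2 * zc i2) = _
      rw [Pi.mulSingle_eq_of_ne (by decide), Pi.mulSingle_eq_of_ne (by decide), one_mul, one_mul]
      show ιU ι (c ^ 2) = _
      rw [map_pow]
    have z3 : zh i3 = L * C := by
      show (Pi.mulSingle (⟨3, r3⟩ : Fin chevF4.rank) L : Fin chevF4.rank → K'ˣ) i3 * ((Pi.mulSingle (⟨0, r0⟩ : Fin chevF4.rank) M : Fin chevF4.rank → K'ˣ) i3 * zc i3) = _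
      rw [show i3 = (⟨3, r3⟩ : Fin chevF4.rank) from rfl, Pi.mulSingle_eq_same, Pi.mulSingle_eq_of_ne (by decide), one_mul]
      rfl
    rw [chi_four, z0, z1, z2, z3]
    have memU : ∀ v : Kˣ, ((ιU ι v : K'ˣ) : K') ∈ ι.fieldRange := fun v => ⟨v, rfl⟩
    have hLn : (L : K') ∉ ι.fieldRange := by
      rintro ⟨y, hy⟩
      apply hP y
      apply ι.injective
      rw [hLv] at hy
      simp only [map_add, map_mul, map_pow, map_one, map_zero, hy]
      exact hl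
    have hMn : (M : K') ∉ ι.fieldRange := by
      rintro ⟨y, hy⟩
      apply hP (d.g y)
      have h3 : y ^ 2 + d.f t * y + 1 = 0 := by
        apply ι.injective
        rw [hMv] at hy
        simp only [map_add, map_mul, map_pow, map_one, map_zero, hy]
        exact hm
      have h4 := congrArg d.g h3
      simp only [map_add, map_mul, map_pow, map_one, map_zero, d.g_f] at h4
      exact h4
    have hsum : ∀ {a : K} {X : K'ˣ}, (X : K') ^ 2 + ι a * X + 1 = 0 → (X : K') + ((X⁻¹ : K'ˣ) : K') ∈ ι.fieldRange := by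
      intro a X hX
      refine ⟨-a, ?_⟩
      have hXi : (X : K') * ((X⁻¹ : K'ˣ) : K') = 1 := by rw [← Units.val_mul, mul_inv_cancel, Units.val_one]
      rw [map_neg]
      linear_combination (-((X⁻¹ : K'ˣ) : K')) * hX + ((X : K') + ι a) * hXi
    refine chi_alg ι.fieldRange h2 F C L M (memU _) (memU _) hLn hMn ?_ ?_ (hsum hl) (hsum hm) ?_ ?_ (shape_all r hr1 hr2)
    · rw [Units.val_pow_eq_pow_val]
      exact sq_not_mem d ι hLn
    · rw [Units.val_pow_eq_pow_val]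
      exact sq_not_mem d ι hMn
    · have e1 : C * F⁻¹ = ιU ι (c * (Units.map (d.f : K →* K) c)⁻¹) := by
        rw [map_mul, map_inv]
      rw [e1]
      show (ι _) ^ 2 ≠ 1
      rw [← map_pow]
      intro h
      have h3 : (((c * (Units.map (d.f : K →* K) c)⁻¹ : Kˣ) : K)) ^ 2 = 1 := by
        apply ι.injective
        rw [h, map_one]
      refine sq_ne_one' d.h2 ?_ h3
      intro h4
      apply f_ne d hc
      have h5 : (c : K) = d.f c := by
        have h6 : ((c * (Units.map (d.f : K →* K) c)⁻¹ : Kˣ) : K) * d.f c = d.f c := by rw [h4, one_mul]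
        rw [← h6]
        simp [Units.val_mul]
      exact h5.symm
    · have e1 : F ^ 2 * C⁻¹ = ιU ι ((Units.map (d.f : K →* K) c) ^ 2 * c⁻¹) := by
        rw [map_mul, map_inv, map_pow]
      rw [e1]
      show (ι _) ^ 2 ≠ 1
      rw [← map_pow]
      intro h
      have h3 : ((((Units.map (d.f : K →* K) c) ^ 2 * c⁻¹ : Kˣ) : K)) ^ 2 = 1 := by
        apply ι.injective
        rw [h, map_one]
      refine sq_ne_one' d.h2 ?_ h3
      intro h4
      apply f_ne d hc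
      have h6 : (Units.map (d.f : K →* K) c) ^ 2 * c⁻¹ = 1 := Units.ext h4
      have h7 : (Units.map (d.f : K →* K) c) ^ 2 = c := mul_inv_eq_one.1 h6
      have h5 : (d.f (c : K)) ^ 2 = c := by
        have := congrArg (fun u : Kˣ => (u : K)) h7
        simpa using this
      have h8 : d.g (c : K) = c := h5
      have h9 := d.f_g (c : K)
      rw [h8] at h9
      exact h9
  · exact Subgroup.mul_mem _ (psi3_norm_p _) (psi0_norm_p _)
  · exact Subgroup.mul_mem _ (psi3_norm_n _) (psi0_norm_n _)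

/-- The semisimple element. -/
noncomputable def x0L (t : K) (c : Kˣ) : LL K := (n0 * x0 t, c)

theorem fix_p {t : K} (ht : t ≠ 0) (hP : ∀ y : K, y ^ 2 + t * y + 1 ≠ 0) {c : Kˣ} (hc : c ≠ 1)
    {g : GL chevF4.Idx K} (hg : g ∈ QU K) (hfix : phi d (x0L t c) * g * (phi d (x0L t c))⁻¹ = g) : g = 1 := by
  let ι : K →+* AlgebraicClosure K := algebraMap K (AlgebraicClosure K)
  obtain ⟨w, z, e1, hz, hwp, -⟩ := exists_diag d ι ht hP hc
  have h1 : MM ι g ∈ QU (AlgebraicClosure K) := MM_QU ι hg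
  have h2 := (Subgroup.mem_normalizer_iff.1 hwp _).1 h1
  have h3 := tt_fix_pos z hz (QU_le_pos h2) (by
    rw [← e1]
    have e : w * MM ι (phi d (n0 * x0 t, c)) * w⁻¹ * (w * MM ι g * w⁻¹) * (w * MM ι (phi d (n0 * x0 t, c)) * w⁻¹)⁻¹ =
        w * (MM ι (phi d (x0L t c) * g * (phi d (x0L t c))⁻¹)) * w⁻¹ := by
      simp only [map_mul, map_inv, x0L]
      group
    rw [e, hfix])
  have h4 : MM ι g = 1 := by
    have : w⁻¹ * (w * MM ι g * w⁻¹) * w = MM ι g := by group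
    rw [← this, h3]
    group
  exact glM_injective chevF4 ι (h4.trans (map_one _).symm)

theorem fix_n {t : K} (ht : t ≠ 0) (hP : ∀ y : K, y ^ 2 + t * y + 1 ≠ 0) {c : Kˣ} (hc : c ≠ 1)
    {g : GL chevF4.Idx K} (hg : g ∈ QV K) (hfix : phi d (x0L t c) * g * (phi d (x0L t c))⁻¹ = g) : g = 1 := by
  let ι : K →+* AlgebraicClosure K := algebraMap K (AlgebraicClosure K)
  obtain ⟨w, z, e1, hz, -, hwn⟩ := exists_diag d ι ht hP hc
  have h1 : MM ι g ∈ QV (AlgebraicClosure K) := MM_QV ι hg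
  have h2 := (Subgroup.mem_normalizer_iff.1 hwn _).1 h1
  have h3 := tt_fix_neg z hz h2 (by
    rw [← e1]
    have e : w * MM ι (phi d (n0 * x0 t, c)) * w⁻¹ * (w * MM ι g * w⁻¹) * (w * MM ι (phi d (n0 * x0 t, c)) * w⁻¹)⁻¹ =
        w * (MM ι (phi d (x0L t c) * g * (phi d (x0L t c))⁻¹)) * w⁻¹ := by
      simp only [map_mul, map_inv, x0L]
      group
    rw [e, hfix])
  have h4 : MM ι g = 1 := by
    have : w⁻¹ * (w * MM ι g * w⁻¹) * w = MM ι g := by group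
    rw [← this, h3]
    group
  exact glM_injective chevF4 ι (h4.trans (map_one _).symm)

theorem tt_pow (z : Fin chevF4.rank → (AlgebraicClosure K)ˣ) (k : ℕ) : (tt z) ^ k = tt (z ^ k) := by
  induction k with
  | zero =>
    rw [pow_zero, pow_zero]
    exact (tor_one RootF4T.R chevF4).symm
  | succ k ih =>
    rw [pow_succ, ih, pow_succ]
    exact tor_mul RootF4T.R chevF4 _ _

/-- The semisimple element has odd order. -/
theorem x0_odd {t : K} (ht : t ≠ 0) (hP : ∀ y : K, y ^ 2 + t * y + 1 ≠ 0) {c : Kˣ} (hc : c ≠ 1) :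
    Odd (orderOf (phi d (x0L t c))) := by
  let ι : K →+* AlgebraicClosure K := algebraMap K (AlgebraicClosure K)
  obtain ⟨w, z, e1, -, -, -⟩ := exists_diag d ι ht hP hc
  have h2K' : (2 : AlgebraicClosure K) = 0 := char2K' d ι
  set x := phi d (x0L t c) with hx
  haveI : Finite (GL chevF4.Idx K) := inferInstance
  have hpos : 0 < orderOf x := orderOf_pos x
  rw [← Nat.not_even_iff_odd]
  rintro ⟨k, hk⟩
  have hk0 : 0 < k := by omega
  have hconj : ∀ n : ℕ, w * MM ι (x ^ n) * w⁻¹ = tt (z ^ n) := by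
    intro n
    rw [← tt_pow, ← e1, map_pow]
    exact (conj_pow).symm
  have h1 : x ^ (k + k) = 1 := by
    rw [← hk]
    exact pow_orderOf_eq_one x
  have h3 : tt (z ^ (k + k)) = (tt 1 : GL chevF4.Idx (AlgebraicClosure K)) := by
    rw [← hconj, h1, map_one, mul_one, mul_inv_cancel]
    exact (tor_one RootF4T.R chevF4).symm
  have h4 : z ^ (k + k) = 1 := hF.tor_inj (B := [[2, 3, 4, 2], [3, 6, 8, 4], [2, 4, 6, 3], [1, 2, 3, 2]]) (by decide +kernel) h3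
  have h5 : z ^ k = 1 := by
    funext j
    have h6 := congrFun h4 j
    simp only [Pi.pow_apply, Pi.one_apply] at h6 ⊢
    apply Units.ext
    have h7 : (((z j) ^ k : (AlgebraicClosure K)ˣ) : AlgebraicClosure K) ^ 2 = 1 := by
      rw [← Units.val_pow_eq_pow_val, ← pow_mul, mul_two, h6, Units.val_one]
    have h8 : (((z j) ^ k : (AlgebraicClosure K)ˣ) : AlgebraicClosure K) - 1 = 0 := by
      have h9 : ((((z j) ^ k : (AlgebraicClosure K)ˣ) : AlgebraicClosure K) - 1) ^ 2 = 0 := by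
        linear_combination h7 + (1 - (((z j) ^ k : (AlgebraicClosure K)ˣ) : AlgebraicClosure K)) * h2K'
      exact pow_eq_zero_iff (two_ne_zero) |>.1 h9
    rw [Units.val_one]
    linear_combination h8
  have h6 : x ^ k = 1 := by
    apply glM_injective chevF4 ι
    have h7 := hconj k
    rw [h5] at h7
    have h8 : tt (1 : Fin chevF4.rank → (AlgebraicClosure K)ˣ) = 1 := tor_one RootF4T.R chevF4
    rw [h8] at h7
    have h9 : MM ι (x ^ k) = w⁻¹ * (w * MM ι (x ^ k) * w⁻¹) * w := by group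
    rw [h9, h7, map_one]
    group
  have h7 := orderOf_le_of_pow_eq_one hk0 h6
  omega

end Main

end Cfsg.Agent.Lib.ThF4
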