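import Cfsg.Agent.Lib.ThF4.Reach

/-!
# Every nontrivial element of `²F₄(q)`, `q ≥ 8`, is a product of two conjugates of a semisimple element
-/

set_option autoImplicit false
set_option linter.unusedSectionVars false
set_option linter.unusedVariables false
set_option linter.unusedSimpArgs false
set_option maxRecDepth 100000

namespace Cfsg.Agent.Lib.ThF4

open Cfsg Cfsg.Lie Cfsg.Agent.Lib.Chev Cfsg.Agent.Lib.Chev.SL2 Matrix Equiv
open Cfsg.Agent.Lib.Chev.TwF4 (hF i0 i1 i2 i3 fin_cases' Dat pP bP NF NF_inj NF_zero wordN_block bW)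
open Cfsg.Agent.Lib.ThSp4 (Good comp_det comp_trace exists_factor exists_conj_comp M2)
open Cfsg.Agent.Lib.ThG2 (conj_of_fix)

variable {K : Type*} [Field K] [Fintype K] {e : ℕ} (d : Dat K e)

theorem norm_of_comm {G : Type*} [Group G] {x c : G} (h : x * c = c * x) : x * c * x⁻¹ = c := by
  rw [h]
  group

include d in
/-- Lifting a conjugating matrix to `SL₂`. -/
theorem exists_sl {t : K} {Y : M2 K} {k : M2 K} (hk : k.det ≠ 0) (he : Y * k = k * Cfsg.Agent.Lib.ThSp4.comp t 1) :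
    ∃ S : SpecialLinearGroup (Fin 2) K, (S * (n0 * x0 t) * S⁻¹).1 = Y := by
  set a : K := (k.det)⁻¹ with ha
  set σ : K := d.f (d.f a) with hσ
  have hσ2 : σ ^ 2 = a := d.hθ a
  have hdet : (σ • k).det = 1 := by
    rw [Matrix.det_smul, Fintype.card_fin, hσ2, ha]
    exact inv_mul_cancel₀ hk
  let S : SpecialLinearGroup (Fin 2) K := ⟨σ • k, hdet⟩
  refine ⟨S, ?_⟩
  have hX : (n0 * x0 t : SpecialLinearGroup (Fin 2) K).1 = Cfsg.Agent.Lib.ThSp4.comp t 1 := by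
    show (n0 : SpecialLinearGroup (Fin 2) K).1 * (x0 t).1 = _
    simp only [n0, x0, Cfsg.Agent.Lib.ThSp4.comp]
    have h2 := d.h2
    ext i j
    fin_cases i <;> fin_cases j <;> simp [Matrix.mul_apply, Fin.sum_univ_two]
    · linear_combination h2
    · linear_combination -h2
    · linear_combination (-t) * h2
  have h1 : (S * (n0 * x0 t)).1 = Y * S.1 := by
    show S.1 * (n0 * x0 t : SpecialLinearGroup (Fin 2) K).1 = _
    rw [hX]
    show (σ • k) * Cfsg.Agent.Lib.ThSp4.comp t 1 = Y * (σ • k)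
    rw [Matrix.mul_smul, Matrix.smul_mul, he]
  show (S * (n0 * x0 t)).1 * (S⁻¹).1 = Y
  rw [h1, Matrix.mul_assoc]
  have h3 : S.1 * (S⁻¹).1 = 1 := by
    have : (S * S⁻¹).1 = 1 := by rw [mul_inv_cancel]; rfl
    exact this
  rw [h3, Matrix.mul_one]

/-- The main theorem: products of two conjugates. -/
theorem two_conj (hS : IsSimpleGroup ↥(GG d)) {t : K} (ht : t ≠ 0) (hP : ∀ y : K, y ^ 2 + t * y + 1 ≠ 0) {c₀ : Kˣ} (hc1 : c₀ ≠ 1)
    {g : GL chevF4.Idx K} (hg : g ∈ GG d) (hg1 : g ≠ 1) :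
    ∃ u ∈ GG d, ∃ v ∈ GG d, g = (u * phi d (x0L t c₀) * u⁻¹) * (v * phi d (x0L t c₀) * v⁻¹) := by
  have hex : ∃ y : Kˣ, y ≠ 1 := ⟨c₀, hc1⟩
  obtain ⟨h₀, hh₀, hP₀⟩ := exists_conj_not_mem d hS hg hg1
  have hg₀ : h₀ * g * h₀⁻¹ ∈ GG d := (GG d).mul_mem ((GG d).mul_mem hh₀ hg) ((GG d).inv_mem hh₀)
  obtain ⟨h₁, hh₁, k, hk, A, u, hu, e₁⟩ := exists_conj_nu d hg₀ hP₀
  obtain ⟨h₂, hh₂, y', hy', B, w, hw, e₂, hB2, hB⟩ := reach d hex c₀ hk A hu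
  obtain ⟨Y₁, Y₂, hY, hY1t, hY1d, hY2t, hY2d⟩ := exists_factor (δ := (1 : K)) one_ne_zero ht hB
  have hP' : ∀ y : K, y ^ 2 - t * y + 1 ≠ 0 := by
    intro y h
    apply hP y
    linear_combination h + (t * y) * d.h2
  obtain ⟨k₁, hk₁, hk₁'⟩ := exists_conj_comp hP' hY1t hY1d
  obtain ⟨k₂, hk₂, hk₂'⟩ := exists_conj_comp hP' hY2t hY2d
  obtain ⟨K₁, hK₁⟩ := exists_sl d hk₁ hk₁'
  obtain ⟨K₂, hK₂⟩ := exists_sl d hk₂ hk₂'
  set L₁ : LL K := (K₁, 1) with hL₁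
  set L₂ : LL K := (K₂, 1) with hL₂
  set x₀ : LL K := x0L t c₀ with hx₀
  have hB' : B = (L₁ * x₀ * L₁⁻¹) * (L₂ * x₀ * L₂⁻¹) := by
    apply Prod.ext
    · show B.1 = (K₁ * (n0 * x0 t) * K₁⁻¹) * (K₂ * (n0 * x0 t) * K₂⁻¹)
      apply Subtype.ext
      show B.1.1 = (K₁ * (n0 * x0 t) * K₁⁻¹).1 * (K₂ * (n0 * x0 t) * K₂⁻¹).1
      rw [hK₁, hK₂, hY]
    · show B.2 = ((1 : Kˣ) * c₀ * 1⁻¹) * ((1 : Kˣ) * c₀ * 1⁻¹)
      rw [hB2]
      simp
  set x := phi d x₀ with hx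
  have hfp : ∀ c ∈ Up d, x * c = c * x → c = 1 := fun c hc h =>
    fix_p d ht hP hc1 (Up_le_QU d hc) (norm_of_comm h)
  have hfn : ∀ c ∈ Un d, x * c = c * x → c = 1 := fun c hc h =>
    fix_n d ht hP hc1 (Un_le_QV d hc) (norm_of_comm h)
  haveI : Finite (GL chevF4.Idx K) := inferInstance
  -- the first factor
  have hy'' : x⁻¹ * ((phi d L₁)⁻¹ * y' * phi d L₁) * x ∈ Un d := conj_inv_mem_n d _ (conj_inv_mem_n d L₁ hy')
  obtain ⟨c₁, hc₁, ec₁⟩ := conj_of_fix (Un d) (phi_norm_Un d x₀) hfn hy''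
  -- the second factor
  have hw' : (phi d L₂)⁻¹ * w * phi d L₂ ∈ Up d := conj_inv_mem_p d L₂ hw
  obtain ⟨c₂, hc₂, ec₂⟩ := conj_of_fix (Up d) (phi_norm_Up d x₀) hfp hw'
  set H := h₂ * h₁ * h₀ with hH
  have hHm : H ∈ GG d := (GG d).mul_mem ((GG d).mul_mem hh₂ hh₁) hh₀
  have hgH : H * g * H⁻¹ = y' * phi d B * w := by
    rw [← e₂, ← e₁, hH]
    group
  have ef₁ : y' * phi d (L₁ * x₀ * L₁⁻¹) = (phi d L₁ * c₁) * x * (phi d L₁ * c₁)⁻¹ := by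
    have : (phi d L₁ * c₁) * x * (phi d L₁ * c₁)⁻¹ = phi d L₁ * (c₁ * x * c₁⁻¹) * (phi d L₁)⁻¹ := by group
    rw [this, ec₁, map_mul, map_mul, map_inv, ← hx]
    group
  have ef₂ : phi d (L₂ * x₀ * L₂⁻¹) * w = (phi d L₂ * c₂) * x * (phi d L₂ * c₂)⁻¹ := by
    have : (phi d L₂ * c₂) * x * (phi d L₂ * c₂)⁻¹ = phi d L₂ * (c₂ * x * c₂⁻¹) * (phi d L₂)⁻¹ := by group
    rw [this, ec₂, map_mul, map_mul, map_inv, ← hx]
    group
  refine ⟨H⁻¹ * (phi d L₁ * c₁), (GG d).mul_mem ((GG d).inv_mem hHm)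
      ((GG d).mul_mem (phi_mem d _) (Un_le_G d hc₁)),
    H⁻¹ * (phi d L₂ * c₂), (GG d).mul_mem ((GG d).inv_mem hHm)
      ((GG d).mul_mem (phi_mem d _) (Up_le_G d hc₂)), ?_⟩
  have e3 : g = H⁻¹ * (H * g * H⁻¹) * H := by group
  have e5 : y' * phi d B * w = (y' * phi d (L₁ * x₀ * L₁⁻¹)) * (phi d (L₂ * x₀ * L₂⁻¹) * w) := by
    rw [hB', map_mul]
    group
  rw [e3, hgH, e5, ef₁, ef₂]
  group

/-- The quadratic without roots. -/
theorem exists_t (h2 : (2 : K) = 0) : ∃ t : K, t ≠ 0 ∧ ∀ y : K, y ^ 2 + t * y + 1 ≠ 0 := by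
  classical
  let S : Finset K := Finset.univ.erase 0
  let φ : K → K := fun y => y + y⁻¹
  have hlt : (S.image φ).card < (Finset.univ : Finset K).card := by
    refine lt_of_le_of_lt Finset.card_image_le ?_
    exact Finset.card_erase_lt_of_mem (Finset.mem_univ _)
  obtain ⟨t, -, ht'⟩ := Finset.exists_mem_notMem_of_card_lt_card hlt
  refine ⟨t, ?_, ?_⟩
  · rintro rfl
    apply ht'
    rw [Finset.mem_image]
    refine ⟨1, by simp [S], ?_⟩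
    simp only [φ, inv_one]
    linear_combination h2
  · intro y hy
    apply ht'
    rw [Finset.mem_image]
    have hy0 : y ≠ 0 := by
      rintro rfl
      simp at hy
    refine ⟨y, by simp [S, hy0], ?_⟩
    simp only [φ]
    have e : y⁻¹ * y = 1 := inv_mul_cancel₀ hy0
    linear_combination (y⁻¹) * hy - (y + t) * e - t * h2

end Cfsg.Agent.Lib.ThF4

namespace Cfsg.Agent.Lib.ThF4

open Cfsg Cfsg.Lie Cfsg.Agent.Lib.Chev Cfsg.Agent.Lib.Chev.TwF4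

/-- The theorem for `²F₄(q)`, `q ≥ 8`. -/
theorem main_F4 {M : Type*} [Group M] {K : Type} [Field K] [Fintype K] {m : ℕ} (hm : 1 ≤ m) (hK : Fintype.card K = 2 ^ (2 * m + 1))
    (φ : M ≃* ↥(twistedF4 K (2 ^ m))) :
    ∃ x : M, Odd (orderOf x) ∧ ∀ g : M, g ≠ 1 → ∃ u v : M, g = (u * x * u⁻¹) * (v * x * v⁻¹) := by
  obtain ⟨d⟩ := exists_dat (m := m) hK
  obtain ⟨y, hy⟩ := exists_y hm hK d
  have hS : IsSimpleGroup ↥(GG d) := (d.isSimple ⟨y, hy⟩).1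
  obtain ⟨t, ht, hP⟩ := exists_t (K := K) d.h2
  have hc1 : y ≠ 1 := by
    rintro rfl
    apply hy
    simp
  set x₀ : ↥(twistedF4 K (2 ^ m)) := ⟨phi d (x0L t y), phi_mem d _⟩ with hx₀
  refine ⟨φ.symm x₀, ?_, ?_⟩
  · rw [MulEquiv.orderOf_eq, Subgroup.orderOf_mk]
    exact x0_odd d ht hP hc1
  · intro g hg
    have hg1 : ((φ g : ↥(twistedF4 K (2 ^ m))) : GL chevF4.Idx K) ≠ 1 := by
      intro h
      apply hg
      apply φ.injective
      rw [map_one]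
      exact Subtype.ext h
    obtain ⟨u, hu, v, hv, e⟩ := two_conj d hS ht hP hc1 (φ g).2 hg1
    refine ⟨φ.symm ⟨u, hu⟩, φ.symm ⟨v, hv⟩, ?_⟩
    apply φ.injective
    apply Subtype.ext
    simp only [map_mul, map_inv, MulEquiv.apply_symm_apply]
    rw [e]
    rfl

end Cfsg.Agent.Lib.ThF4
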