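import Cfsg.Agent.Lib.ThF4.Cov
import Cfsg.Agent.Lib.ThSp4.Two

/-!
# Reaching a good block in `²F₄`, and products of two conjugates
-/

set_option autoImplicit false
set_option linter.unusedSectionVars false
set_option linter.unusedVariables false
set_option linter.unusedSimpArgs false
set_option maxRecDepth 100000

namespace Cfsg.Agent.Lib.ThF4

open Cfsg Cfsg.Lie Cfsg.Agent.Lib.Chev Cfsg.Agent.Lib.Chev.SL2 Matrix Equiv
open Cfsg.Agent.Lib.Chev.TwF4 (hF i0 i1 i2 i3 fin_cases' Dat pP bP NF NF_inj NF_zero wordN_block bW)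
open Cfsg.Agent.Lib.Th3D4 (map_x0 map_y0 mapf mapf_x0 mapf_y0 mapf_n0 mapf_D0 n0_eq)
open Cfsg.Agent.Lib.ThSp4 (Good comp comp_det comp_trace exists_factor exists_conj_comp)
open Cfsg.Agent.Lib.ThG2 (conj_of_fix)

section Alg

variable {K : Type*} [Field K]

theorem good_of_SL (h2 : (2 : K) = 0) (S : SpecialLinearGroup (Fin 2) K) (ht : S.1.trace ≠ 0) : Good (1 : K) S.1 := by
  right
  refine ⟨by rw [S.det_coe]; simp, by rw [h2, zero_mul]; exact ht, ?_⟩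
  rintro ⟨σ, hσ⟩
  apply ht
  rw [hσ, Matrix.trace_fin_two]
  simp
  linear_combination σ * h2

theorem entries (y : Kˣ) (v : K) (A : SpecialLinearGroup (Fin 2) K) :
    (D0 y * x0 v * A).1 = !![(y : K) * (A.1 0 0 + v * A.1 1 0), (y : K) * (A.1 0 1 + v * A.1 1 1);
      ((y⁻¹ : Kˣ) : K) * A.1 1 0, ((y⁻¹ : Kˣ) : K) * A.1 1 1] := by
  show (D0 y).1 * (x0 v).1 * A.1 = _
  simp only [D0, x0]
  ext i j
  fin_cases i <;> fin_cases j <;> simp [Matrix.mul_apply, Fin.sum_univ_two] <;> ring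

theorem good_choice (h2 : (2 : K) = 0) (y : Kˣ) (A : SpecialLinearGroup (Fin 2) K) : ∃ v : K, Good (1 : K) (D0 y * x0 v * A).1 := by
  have hdet := det_eq A
  have hy0 : (y : K) ≠ 0 := y.ne_zero
  have hyi : (y : K) * ((y⁻¹ : Kˣ) : K) = 1 := by rw [← Units.val_mul, mul_inv_cancel, Units.val_one]
  by_cases hr : A.1 1 0 = 0
  · rw [hr] at hdet
    have hps : A.1 0 0 * A.1 1 1 = 1 := by linear_combination hdet
    by_cases hx : (y : K) * A.1 0 0 = 1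
    · refine ⟨-(A.1 0 1 * A.1 0 0), Or.inl ?_⟩
      rw [entries, hr]
      have e1 : A.1 1 1 = y := by
        calc A.1 1 1 = ((y : K) * A.1 0 0) * A.1 1 1 := by rw [hx, one_mul]
          _ = y := by rw [mul_assoc, hps, mul_one]
      ext i j
      fin_cases i <;> fin_cases j <;> simp
      · linear_combination hx
      · rw [e1]
        linear_combination (-(A.1 0 1)) * hx
      · rw [e1]
        exact inv_mul_cancel₀ hy0
    · refine ⟨0, good_of_SL h2 _ ?_⟩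
      rw [entries, Matrix.trace_fin_two_of, hr]
      intro h3
      apply hx
      have h4 : ((y : K) * A.1 0 0 - 1) ^ 2 = 0 := by
        have h5 : (y : K) * (A.1 0 0 + 0 * 0) + ((y⁻¹ : Kˣ) : K) * A.1 1 1 = 0 := h3
        have h6 : ((y : K) * A.1 0 0) * ((y : K) * (A.1 0 0 + 0 * 0) + ((y⁻¹ : Kˣ) : K) * A.1 1 1) = 0 := by rw [h5, mul_zero]
        have h7 : ((y : K) * A.1 0 0) * ((y : K) * (A.1 0 0 + 0 * 0) + ((y⁻¹ : Kˣ) : K) * A.1 1 1) = ((y : K) * A.1 0 0) ^ 2 + ((y : K) * ((y⁻¹ : Kˣ) : K)) * (A.1 0 0 * A.1 1 1) := by ring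
        rw [h7, hyi, hps] at h6
        linear_combination h6 - ((y : K) * A.1 0 0) * h2 + h2 * 0
      have h8 := pow_eq_zero_iff (two_ne_zero) |>.1 h4
      linear_combination h8
  · have hyr : (y : K) * A.1 1 0 ≠ 0 := mul_ne_zero hy0 hr
    refine ⟨(1 - (y : K) * A.1 0 0 - ((y⁻¹ : Kˣ) : K) * A.1 1 1) / ((y : K) * A.1 1 0), good_of_SL h2 _ ?_⟩
    rw [entries, Matrix.trace_fin_two_of]
    have e : (y : K) * (A.1 0 0 + (1 - (y : K) * A.1 0 0 - ((y⁻¹ : Kˣ) : K) * A.1 1 1) / ((y : K) * A.1 1 0) * A.1 1 0) + ((y⁻¹ : Kˣ) : K) * A.1 1 1 = 1 := by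
      field_simp
      ring
    rw [e]
    exact one_ne_zero

theorem entriesW (y : Kˣ) (A : SpecialLinearGroup (Fin 2) K) :
    (D0 y * A * n0⁻¹).1 = !![(y : K) * A.1 0 1, -((y : K) * A.1 0 0);
      ((y⁻¹ : Kˣ) : K) * A.1 1 1, -(((y⁻¹ : Kˣ) : K) * A.1 1 0)] := by
  have e : (n0⁻¹ : SpecialLinearGroup (Fin 2) K).1 = !![0, -1; 1, 0] := by
    show Matrix.adjugate (n0 : SpecialLinearGroup (Fin 2) K).1 = _
    rw [Matrix.adjugate_fin_two]
    simp only [n0]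
    ext i j
    fin_cases i <;> fin_cases j <;> simp
  show (D0 y).1 * A.1 * (n0⁻¹ : SpecialLinearGroup (Fin 2) K).1 = _
  rw [e]
  simp only [D0]
  have hM : A.1 = !![A.1 0 0, A.1 0 1; A.1 1 0, A.1 1 1] := Matrix.eta_fin_two _
  conv_lhs => rw [hM]
  rw [Matrix.mul_fin_two, Matrix.mul_fin_two]
  ext i j
  fin_cases i <;> fin_cases j <;> simp

/-- The choice for the last representative. -/
theorem good_W (h2 : (2 : K) = 0) (hex : ∃ y : Kˣ, y ≠ 1) (A : SpecialLinearGroup (Fin 2) K) (ht : A.1.trace = 0) (hA : A ≠ 1) :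
    ∃ y : Kˣ, Good (1 : K) (D0 y * A * n0⁻¹).1 := by
  have hdet := det_eq A
  rw [Matrix.trace_fin_two] at ht
  have hps : A.1 1 1 = A.1 0 0 := by linear_combination ht - A.1 0 0 * h2
  rw [hps] at hdet
  have hq : ¬ (A.1 0 1 = 0 ∧ A.1 1 0 = 0) := by
    rintro ⟨h3, h4⟩
    apply hA
    rw [h3, h4] at hdet
    have h5 : (A.1 0 0 - 1) ^ 2 = 0 := by linear_combination hdet + (1 - A.1 0 0) * h2
    have h6 := pow_eq_zero_iff (two_ne_zero) |>.1 h5
    have h7 : A.1 0 0 = 1 := by linear_combination h6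
    apply Subtype.ext
    show A.1 = 1
    ext i j
    fin_cases i <;> fin_cases j
    · simpa using h7
    · simpa using h3
    · simpa using h4
    · simpa using hps.trans h7
  by_cases hqr : A.1 0 1 = A.1 1 0
  · obtain ⟨y, hy⟩ := hex
    refine ⟨y, good_of_SL h2 _ ?_⟩
    rw [entriesW, Matrix.trace_fin_two_of, ← hqr]
    have hq0 : A.1 0 1 ≠ 0 := by
      intro h3
      exact hq ⟨h3, by rw [← hqr]; exact h3⟩
    have hyi : (y : K) * ((y⁻¹ : Kˣ) : K) = 1 := by rw [← Units.val_mul, mul_inv_cancel, Units.val_one]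
    intro h3
    have h4 : A.1 0 1 * ((y : K) - ((y⁻¹ : Kˣ) : K)) = 0 := by linear_combination h3
    have h5 := (mul_eq_zero.1 h4).resolve_left hq0
    apply hy
    apply Units.ext
    rw [Units.val_one]
    have h6 : ((y : K) - 1) ^ 2 = 0 := by
      have h7 : (y : K) = ((y⁻¹ : Kˣ) : K) := by linear_combination h5
      have h8 : (y : K) * y = 1 := by
        nth_rewrite 2 [h7]
        exact hyi
      linear_combination h8 + (1 - (y : K)) * h2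
    have h9 := pow_eq_zero_iff (two_ne_zero) |>.1 h6
    linear_combination h9
  · refine ⟨1, good_of_SL h2 _ ?_⟩
    rw [entriesW, Matrix.trace_fin_two_of]
    intro h3
    apply hqr
    simp at h3
    linear_combination h3

end Alg

variable {K : Type*} [Field K] [Fintype K] {e : ℕ} (d : Dat K e)

theorem reach_of_cov {ν : GL chevF4.Idx K} (y z c₀ : Kˣ) (hcov : ∀ v : K, Cov d ν ((D0 y, z) * (x0 v, 1))) (p : LL K)
    (hz : z * p.2 = c₀ * c₀) {u : GL chevF4.Idx K} (hu : u ∈ Up d) :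
    ∃ h ∈ GG d, ∃ y' ∈ Un d, ∃ B : LL K, ∃ w ∈ Up d,
      h * (ν * phi d p * u) * h⁻¹ = y' * phi d B * w ∧ B.2 = c₀ * c₀ ∧ Good (1 : K) B.1.1 := by
  obtain ⟨v, hv⟩ := good_choice d.h2 y p.1
  obtain ⟨h, hh, y', hy', w, hw, e1⟩ := cov_conj d (hcov v) p hu
  refine ⟨h, Up_le_G d hh, y', hy', _, w, hw, e1, ?_, hv⟩
  show z * 1 * p.2 = c₀ * c₀
  rw [mul_one, hz]

theorem m_n (z : Kˣ) : fU d ((z * (fU d z)⁻¹) ^ 2) * (z * (fU d z)⁻¹) ^ 2 = z := by
  rw [map_pow, map_mul, map_inv, mul_pow, mul_pow, inv_pow (fU d (fU d z)), fU_sq d z]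
  have e : fU d z ^ 2 * z⁻¹ * (z ^ 2 * (fU d z)⁻¹ ^ 2) = (fU d z ^ 2 * (fU d z)⁻¹ ^ 2) * (z⁻¹ * z ^ 2) := by
    simp only [mul_comm, mul_left_comm, mul_assoc]
  rw [e, ← mul_pow, mul_inv_cancel, one_pow, one_mul, sq, inv_mul_cancel_left]

theorem reach1 (c₀ : Kˣ) (p : LL K) {u : GL chevF4.Idx K} (hu : u ∈ Up d) :
    ∃ h ∈ GG d, ∃ y' ∈ Un d, ∃ B : LL K, ∃ w ∈ Up d,
      h * (nuK 1 * phi d p * u) * h⁻¹ = y' * phi d B * w ∧ B.2 = c₀ * c₀ ∧ Good (1 : K) B.1.1 := by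
  set β := c₀ * c₀ * p.2⁻¹ with hβ
  exact reach_of_cov d (1 * β⁻¹) β c₀ (cov1 d β) p (by rw [hβ, inv_mul_cancel_right]) hu

theorem reach2 (c₀ : Kˣ) (p : LL K) {u : GL chevF4.Idx K} (hu : u ∈ Up d) :
    ∃ h ∈ GG d, ∃ y' ∈ Un d, ∃ B : LL K, ∃ w ∈ Up d,
      h * (nuK 2 * phi d p * u) * h⁻¹ = y' * phi d B * w ∧ B.2 = c₀ * c₀ ∧ Good (1 : K) B.1.1 := by
  set z := c₀ * c₀ * p.2⁻¹ with hz
  set β := (z * (fU d z)⁻¹) ^ 2 with hβ
  have h1 : fU d β * β = z := m_n d z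
  exact reach_of_cov d _ (fU d β * β) c₀ (cov2 d β) p (by rw [h1, hz, inv_mul_cancel_right]) hu

theorem reach3 (c₀ : Kˣ) (p : LL K) {u : GL chevF4.Idx K} (hu : u ∈ Up d) :
    ∃ h ∈ GG d, ∃ y' ∈ Un d, ∃ B : LL K, ∃ w ∈ Up d,
      h * (nuK 3 * phi d p * u) * h⁻¹ = y' * phi d B * w ∧ B.2 = c₀ * c₀ ∧ Good (1 : K) B.1.1 := by
  set z := c₀ * c₀ * p.2⁻¹ with hz
  set β := (z * (fU d z)⁻¹) ^ 2 with hβ
  have h1 : fU d β * β = z := m_n d z
  exact reach_of_cov d _ (fU d β * β) c₀ (cov3 d β) p (by rw [h1, hz, inv_mul_cancel_right]) hu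

theorem wLong_eq : wn (K := K) wLong = wn [0, 3] * nuK 4 := by
  show wn wLong = wn [0, 3] * wn (wordL 4)
  have h : wLong = [0, 3] ++ wordL 4 := by decide +kernel
  rw [← wn_append, h]

theorem reach4 (hex : ∃ y : Kˣ, y ≠ 1) (c₀ : Kˣ) (p : LL K) {u : GL chevF4.Idx K} (hu : u ∈ Up d) :
    ∃ h ∈ GG d, ∃ y' ∈ Un d, ∃ B : LL K, ∃ w ∈ Up d,
      h * (nuK 4 * phi d p * u) * h⁻¹ = y' * phi d B * w ∧ B.2 = c₀ * c₀ ∧ Good (1 : K) B.1.1 := by
  set z := c₀ * c₀ * p.2⁻¹ with hz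
  have hz2 : z * p.2 = c₀ * c₀ := by rw [hz, inv_mul_cancel_right]
  by_cases hA : p.1 = 1 ∨ p.1.1.trace ≠ 0
  · obtain ⟨h, hh, y', hy', w, hw, e1⟩ := cov_conj d (cov4 d z) p hu
    refine ⟨h, Up_le_G d hh, y', hy', _, w, hw, e1, ?_, ?_⟩
    · show z * p.2 = _
      exact hz2
    · show Good (1 : K) (1 * p.1).1
      rw [one_mul]
      rcases hA with h1 | h1
      · left
        rw [h1]
        simp
      · exact good_of_SL d.h2 _ h1
  · push Not at hA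
    obtain ⟨y, hy⟩ := good_W d.h2 hex p.1 hA.2 hA.1
    set s : LL K := (n0, 1) with hs
    have hsv : phi d s = wn [0, 3] := (wn03_eq d).symm
    set p' := p * s⁻¹ with hp'
    have hu' := conj_mem_p d s hu
    obtain ⟨h, hh, y', hy', w, hw, e1⟩ := cov_conj d (covW d y z) p' hu'
    refine ⟨h * phi d s, (GG d).mul_mem (Up_le_G d hh) (phi_mem d s), y', hy', (D0 y, z) * p', w, hw, ?_, ?_, ?_⟩
    · rw [← e1, wLong_eq, ← hsv, hp', map_mul, map_inv]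
      group
    · show z * (p.2 * (1 : Kˣ)⁻¹) = _
      rw [inv_one, mul_one, hz2]
    · show Good (1 : K) (D0 y * (p.1 * n0⁻¹)).1
      rw [← mul_assoc]
      exact hy

/-- All the double cosets lead to a good block. -/
theorem reach (hex : ∃ y : Kˣ, y ≠ 1) (c₀ : Kˣ) {k : Fin 5} (hk : k ≠ 0) (p : LL K) {u : GL chevF4.Idx K} (hu : u ∈ Up d) :
    ∃ h ∈ GG d, ∃ y' ∈ Un d, ∃ B : LL K, ∃ w ∈ Up d,
      h * (nuK k * phi d p * u) * h⁻¹ = y' * phi d B * w ∧ B.2 = c₀ * c₀ ∧ Good (1 : K) B.1.1 := by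
  fin_cases k
  · exact absurd rfl hk
  · exact reach1 d c₀ p hu
  · exact reach2 d c₀ p hu
  · exact reach3 d c₀ p hu
  · exact reach4 d hex c₀ p hu

end Cfsg.Agent.Lib.ThF4
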